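import Cfsg.Agent.H72.Core
import Cfsg.Agent.H4.CoprimeAut
import Cfsg.Agent.H19.Huppert
import Cfsg.Agent.H22.PGroupMisc
import Cfsg.Agent.S0029

/-! Coprime automorphisms of a `p`-group fixing all subgroups of a given order. -/

set_option autoImplicit false

namespace Cfsg.Agent.H73

open Subgroup Cfsg.Agent.H72
open scoped commutatorElement

variable {G : Type*} [Group G] {p : ℕ}

theorem mulAut_eq_one_of_four_fixed (G : Type*) [Group G] [Finite G] :
    IsPGroup 2 G → ∀ a : MulAut G, Nat.Coprime (orderOf a) 2 →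
      (∀ x : G, x ^ 4 = 1 → a x = x) → a = 1 := by
  refine H2.card_induction (P := fun G _ _ => IsPGroup 2 G → ∀ a : MulAut G,
    Nat.Coprime (orderOf a) 2 → (∀ x : G, x ^ 4 = 1 → a x = x) → a = 1) G ?_
  intro G _ _ ih hG a ha h
  have hchar : ∀ (M : Subgroup G) [M.Characteristic], M ≠ ⊤ → ∀ x ∈ M, a x = x := by
    intro M _ hM x hx
    have h1 := ih M (H2.card_lt_of_ne_top hM) (hG.to_subgroup M) (MulAut.characteristic M a)
      (H4.coprime_orderOf_map _ ha) (fun y hy => Subtype.ext (h y (congrArg Subtype.val hy)))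
    have h2 := congrArg Subtype.val (DFunLike.congr_fun h1 (⟨x, hx⟩ : M))
    exact h2
  rcases subsingleton_or_nontrivial G with hs | hn
  · ext x
    exact Subsingleton.elim _ _
  have hΦ : frattini G ≠ ⊤ := fun ht =>
    bot_ne_top (frattini_nongenerating (K := (⊥ : Subgroup G)) (by rw [ht, sup_top_eq]))
  have h1 : ∀ x, x⁻¹ * a x ∈ centralizer (frattini G : Set G) := fun x =>
    H4.inv_mul_apply_mem_centralizer a (hchar _ hΦ)
      (fun y hy => (inferInstance : (frattini G).Normal).conj_mem y hy x)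
  by_cases hC : centralizer (frattini G : Set G) = ⊤
  swap
  · exact H4.mulAut_eq_one_of_stabilizes hG a ha _ (hchar _ hC) h1
  have hcen : ∀ y ∈ frattini G, ∀ x : G, Commute x y := fun y hy x => by
    have : x ∈ centralizer (frattini G : Set G) := hC ▸ mem_top x
    exact (this y hy).symm
  have hcomm : ∀ u v x : G, Commute x ⁅u, v⁆ := fun u v x =>
    hcen _ (H3.commutator_le_frattini hG (commutator_mem_commutator (mem_top u) (mem_top v))) x
  ext x
  refine H4.mulAut_apply_eq_of_fixed_of_isPGroup hG a ha (h _ ?_)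
  have e1 : (x⁻¹ * a x) ^ 2 = ⁅a x, x⁻¹⁆ := by
    rw [H3.mul_pow_of_commute_commutator (hcomm _ _ _) (hcomm _ _ _), ← map_pow,
      hchar _ hΦ _ (H3.pow_mem_frattini hG x), inv_pow, inv_mul_cancel]
    simp
  rw [show 4 = 2 * 2 from rfl, pow_mul, e1, ← H3.commutator_pow_left_of_commute (hcomm _ _ _),
    commutatorElement_eq_one_iff_mul_comm]
  exact (hcen _ (H3.pow_mem_frattini hG _) _).symm.eq

theorem mem_centralizer_of_four_fixed [Finite G] {P : Subgroup G}
    (hP : IsPGroup 2 P) {g : G} (hg : Nat.Coprime (orderOf g) 2)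
    (hgP : g ∈ normalizer (P : Set G)) (h1 : ∀ x ∈ P, x ^ 4 = 1 → g * x = x * g) :
    g ∈ centralizer (P : Set G) := by
  have h2 := mulAut_eq_one_of_four_fixed P hP (P.normalizerMonoidHom ⟨g, hgP⟩)
    (H4.coprime_orderOf_map _ (by rwa [← Subgroup.orderOf_coe]))
    (fun x hx => Subtype.ext (by
      change g * x * g⁻¹ = x
      rw [h1 x x.2 (congrArg Subtype.val hx), mul_inv_cancel_right]))
  intro x hx
  have h4 := congrArg Subtype.val (DFunLike.congr_fun h2 (⟨x, hx⟩ : P))
  have h3 : g * x * g⁻¹ = x := h4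
  exact (mul_inv_eq_iff_eq_mul.mp h3).symm

/-- The subgroup generated by the commutators and the `(p - 1)`-th powers of `H`. -/
def bigN (p : ℕ) (H : Subgroup G) : Subgroup G :=
  ⁅H, H⁆ ⊔ closure ((fun h => h ^ (p - 1)) '' (H : Set G))

theorem bigN_mono {H K : Subgroup G} (h : H ≤ K) : bigN p H ≤ bigN p K :=
  sup_le_sup (commutator_mono h h) (closure_mono (Set.image_mono h))

theorem bigN_le (H : Subgroup G) : bigN p H ≤ H :=
  sup_le (commutator_le_self H) ((closure_le _).2 (by rintro _ ⟨h, hh, rfl⟩; exact H.pow_mem hh _))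

theorem map_bigN {G' : Type*} [Group G'] (f : G →* G') (H : Subgroup G) :
    (bigN p H).map f = bigN p (H.map f) := by
  rw [bigN, bigN, Subgroup.map_sup, map_commutator, MonoidHom.map_closure, coe_map,
    Set.image_image, Set.image_image]
  simp only [map_pow]

theorem pow_mem_bigN {H : Subgroup G} {h : G} (hh : h ∈ H) : h ^ (p - 1) ∈ bigN p H :=
  mem_sup_right (subset_closure ⟨h, hh, rfl⟩)

theorem commutator_le_bigN (H : Subgroup G) : ⁅H, H⁆ ≤ bigN p H := le_sup_left

theorem bigN_top_normal : (bigN p (⊤ : Subgroup G)).Normal := by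
  refine ⟨fun n hn g => ?_⟩
  have : g * n * g⁻¹ = ⁅g, n⁆ * n := by simp [commutatorElement_def]
  rw [this]
  exact mul_mem (commutator_le_bigN _ (commutator_mem_commutator (mem_top _) (mem_top _))) hn

theorem mem_bigN_of_coprime [Finite G] {H : Subgroup G} {h : G} (hh : h ∈ H)
    (hc : (orderOf h).Coprime (p - 1)) : h ∈ bigN p H := by
  obtain ⟨m, hm⟩ := exists_pow_eq_self_of_coprime hc.symm
  rw [← hm]
  exact pow_mem (pow_mem_bigN hh) _

theorem bigN_top_le_centralizer [Finite G] [hp : Fact p.Prime] (V : Subgroup G) [V.Normal]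
    (hV : Nat.card V = p) : bigN p (⊤ : Subgroup G) ≤ centralizer (V : Set G) := by
  have : IsCyclic V := isCyclic_of_prime_card hV
  refine sup_le (commutator_le.2 fun a _ b _ v hv => ?_) ((closure_le _).2 ?_)
  · have h1 : MulAut.conjNormal (H := V) ⁅a, b⁆ = 1 := by
      apply (IsCyclic.mulAutMulEquiv V).injective
      rw [map_commutatorElement, map_commutatorElement, map_one,
        commutatorElement_eq_one_iff_mul_comm, mul_comm]
    have h3 := congrArg (fun e : MulAut V => (e ⟨v, hv⟩ : G)) h1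
    simp only [MulAut.conjNormal_apply, MulAut.one_apply] at h3
    exact (mul_inv_eq_iff_eq_mul.mp h3).symm
  · rintro _ ⟨h, -, rfl⟩
    exact H19.pow_mem_centralizer_of_card_prime hp.out V hV h

theorem bigN_section [Finite G] [hp : Fact p.Prime] {H A B : Subgroup G}
    (hAB : A ≤ normalizer (B : Set G)) (hi : B.relIndex A = p) (hHA : H ≤ normalizer (A : Set G))
    (hHB : H ≤ normalizer (B : Set G)) {g : G} (hg : g ∈ bigN p H) {a : G} (ha : a ∈ A) :
    g * a * g⁻¹ * a⁻¹ ∈ B := by
  set L := normalizer (A : Set G) ⊓ normalizer (B : Set G) with hL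
  have hAL : A ≤ L := le_inf le_normalizer hAB
  have hn1 : (B.subgroupOf L).Normal := normal_subgroupOf_of_le_normalizer inf_le_right
  have hn2 : (A.subgroupOf L).Normal := normal_subgroupOf_of_le_normalizer inf_le_left
  let f := QuotientGroup.mk' (B.subgroupOf L)
  have hn3 : ((A.subgroupOf L).map f).Normal := hn2.map f (QuotientGroup.mk'_surjective _)
  have hc : Nat.card ((A.subgroupOf L).map f) = p := by
    rw [← relIndex_ker, QuotientGroup.ker_mk', relIndex_subgroupOf hAL, hi]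
  have h1 : g ∈ (bigN p (⊤ : Subgroup L)).map L.subtype := by
    rw [map_bigN, ← MonoidHom.range_eq_map, range_subtype]
    exact bigN_mono (le_inf hHA hHB) hg
  obtain ⟨g, hg', rfl⟩ := h1
  have h2 : f g ∈ bigN p (⊤ : Subgroup (L ⧸ B.subgroupOf L)) :=
    bigN_mono (H := (⊤ : Subgroup L).map f) le_top (by rw [← map_bigN]; exact ⟨g, hg', rfl⟩)
  have h3 := bigN_top_le_centralizer _ hc h2 (f ⟨a, hAL ha⟩) ⟨⟨a, hAL ha⟩, ha, rfl⟩
  have h4 : g * ⟨a, hAL ha⟩ * g⁻¹ * (⟨a, hAL ha⟩ : L)⁻¹ ∈ B.subgroupOf L := by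
    rw [← QuotientGroup.ker_mk' (B.subgroupOf L), MonoidHom.mem_ker]
    simp only [map_mul, map_inv]
    change f g * f _ * (f g)⁻¹ * (f _)⁻¹ = 1
    rw [← h3]; group
  exact h4

theorem le_normalizer_of_relIndex_eq [Finite G] [hp : Fact p.Prime] {A B : Subgroup G}
    (hA : IsPGroup p A) (hBA : B ≤ A) (hi : B.relIndex A = p) : A ≤ normalizer (B : Set G) :=
  (normal_subgroupOf_iff_le_normalizer hBA).1 (H3.normal_of_index_eq hA hi)

theorem normalizer_le_normalizer_of_le_isCyclic [Finite G] {C K : Subgroup G} (h : IsCyclic C)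
    (hK : K ≤ C) : normalizer (C : Set G) ≤ normalizer (K : Set G) := by
  obtain ⟨y, rfl⟩ := (Subgroup.isCyclic_iff_exists_zpowers_eq_top _).mp h
  intro g hg
  refine mem_normalizer_of_conj_mem fun x hx => ?_
  obtain ⟨k, rfl⟩ := mem_zpowers_iff.mp (hK hx)
  obtain ⟨m, hm⟩ := mem_zpowers_iff.mp (conj_mem_of_mem_normalizer hg (mem_zpowers y))
  rw [← conj_zpow, ← hm, ← zpow_mul, mul_comm, zpow_mul]
  exact K.zpow_mem hx m

theorem exists_between_card [Finite G] [hp : Fact p.Prime] {A U : Subgroup G} (hU : IsPGroup p U)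
    (hAU : A ≤ U) {k : ℕ} (h1 : Nat.card A ≤ p ^ k) (h2 : p ^ k ≤ Nat.card U) :
    ∃ K, A ≤ K ∧ K ≤ U ∧ Nat.card K = p ^ k := by
  obtain ⟨n, hn⟩ := (hU.to_le hAU).exists_card_eq
  obtain ⟨m, hm⟩ := hU.exists_card_eq
  have h3 : n ≤ k := (Nat.pow_le_pow_iff_right hp.out.one_lt).1 (hn ▸ h1)
  have h4 : k ≤ m := (Nat.pow_le_pow_iff_right hp.out.one_lt).1 (hm ▸ h2)
  obtain ⟨K, hK, hAK⟩ := Sylow.exists_subgroup_card_pow_prime_le p (G := U) (m := k)
    (hm ▸ pow_dvd_pow p h4) (A.subgroupOf U) ((H2.card_subgroupOf_of_le hAU).trans hn) h3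
  refine ⟨K.map U.subtype, fun a ha => ⟨⟨a, hAU ha⟩, hAK ha, rfl⟩, map_subtype_le _, ?_⟩
  rw [card_map_of_injective U.subtype_injective, hK]

theorem mem_centralizer_of_normalizes_maximal [Finite G] [hp : Fact p.Prime] {H U : Subgroup G}
    (hU : IsPGroup p U) (hHU : H ≤ normalizer (U : Set G))
    (hM : ∀ M ≤ U, Nat.card M * p = Nat.card U → H ≤ normalizer (M : Set G)) {g : G}
    (hg : g ∈ bigN p H) (hgp : (orderOf g).Coprime p) : g ∈ centralizer (U : Set G) := by
  refine S0029.result (zpowers g) U (zpowers_le.2 (hHU (bigN_le H hg))) ?_ ?_ (mem_zpowers g)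
  · obtain ⟨n, hn⟩ := (hU.to_subgroup (frattini U)).exists_card_eq
    rw [hn, Nat.card_zpowers]
    exact hgp.pow_right n
  · intro a ha k hk
    have ha' : a ∈ bigN p H := zpowers_le.2 hg ha
    have h1 : a * k * a⁻¹ * k⁻¹ ∈ U :=
      mul_mem (conj_mem_of_mem_normalizer (hHU (bigN_le H ha')) hk) (inv_mem hk)
    refine ⟨⟨_, h1⟩, H3.mem_frattini_iff.2 fun M hMc => ?_, rfl⟩
    have h2 : (M.map U.subtype).relIndex U = p := by
      rw [relIndex, ← H3.index_eq_of_isCoatom hU hMc]
      congr 1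
      exact comap_map_eq_self_of_injective U.subtype_injective M
    have h3 := H2.card_mul_relIndex_of_le (map_subtype_le M)
    rw [h2] at h3
    obtain ⟨m, hm, e⟩ := bigN_section (le_normalizer_of_relIndex_eq hU (map_subtype_le M) h2) h2 hHU
      (hM _ (map_subtype_le M) h3) ha' hk
    have : m = ⟨_, h1⟩ := Subtype.ext e
    exact this ▸ hm

theorem mem_centralizer_of_isCyclic [Finite G] [hp : Fact p.Prime] {H U : Subgroup G}
    (hU : IsPGroup p U) (hc : IsCyclic U) (hHU : H ≤ normalizer (U : Set G)) {g : G}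
    (hg : g ∈ bigN p H) (hgp : (orderOf g).Coprime p) : g ∈ centralizer (U : Set G) :=
  mem_centralizer_of_normalizes_maximal hU hHU
    (fun _ hM _ => hHU.trans (normalizer_le_normalizer_of_le_isCyclic hc hM)) hg hgp

theorem mem_centralizer_of_normalizes_card [Finite G] [hp : Fact p.Prime] {H Q : Subgroup G}
    (hQ : IsPGroup p Q) (hHQ : H ≤ normalizer (Q : Set G)) {d : ℕ} (hd : 0 < d)
    (hlt : p ^ d < Nat.card Q) (h1 : ∀ E ≤ Q, Nat.card E = p ^ d → H ≤ normalizer (E : Set G))
    (h2 : p ^ d = 2 → ∀ E ≤ Q, Nat.card E = 4 → H ≤ normalizer (E : Set G)) {g : G}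
    (hg : g ∈ bigN p H) (hgp : (orderOf g).Coprime p) : g ∈ centralizer (Q : Set G) := by
  have key : ∀ z ∈ Q, orderOf z ≤ p ^ d → g * z = z * g := by
    intro z hz hzo
    obtain ⟨E, hzE, hEQ, hE⟩ := exists_between_card hQ (zpowers_le.2 hz)
      (by rwa [Nat.card_zpowers]) hlt.le
    obtain ⟨U, hEU, hUQ, hU⟩ := exists_between_card hQ hEQ (k := d + 1)
      (hE ▸ Nat.pow_le_pow_right hp.out.pos d.le_succ) (H22.pow_succ_le_card_of_lt hQ hlt)
    have hUp := hQ.to_le hUQ
    by_cases hc : IsCyclic U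
    · have : IsCyclic E := Subgroup.isCyclic_of_le hEU
      exact (mem_centralizer_of_isCyclic (hQ.to_le hEQ) this (h1 E hEQ hE) hg hgp z
        (hzE (mem_zpowers z))).symm
    · have hne : ¬ U ≤ E := fun h => by
        have := card_le_of_le h
        rw [hU, hE] at this
        exact absurd (Nat.pow_lt_pow_right hp.out.one_lt d.lt_succ_self) (not_lt.2 this)
      obtain ⟨u, hu, huE⟩ := SetLike.not_le_iff_exists.1 hne
      have h3 : Nat.card (zpowers u) ≤ p ^ d := by
        by_contra! h3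
        have h4 := H22.pow_succ_le_card_of_lt (hUp.to_le (zpowers_le.2 hu)) h3
        have h5 : zpowers u = U := eq_of_le_of_card_ge (zpowers_le.2 hu) (hU ▸ h4)
        exact hc (h5 ▸ inferInstance)
      obtain ⟨E', huE', hEU', hE'⟩ := exists_between_card hUp (zpowers_le.2 hu) h3
        (hU ▸ Nat.pow_le_pow_right hp.out.pos d.le_succ)
      have h4 : E ⊔ E' = U := by
        refine eq_of_le_of_card_ge (sup_le hEU hEU') ?_
        rw [hU]
        refine H22.pow_succ_le_card_of_lt (hUp.to_le (sup_le hEU hEU')) ?_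
        rw [← hE]
        exact H2.card_lt_of_lt (lt_of_le_of_ne le_sup_left fun h =>
          huE (h.ge (mem_sup_right (huE' (mem_zpowers u)))))
      have h5 : H ≤ normalizer (U : Set G) :=
        h4 ▸ le_normalizer_sup (h1 E hEQ hE) (h1 E' (hEU'.trans hUQ) hE')
      refine (mem_centralizer_of_normalizes_maximal hUp h5 (fun M hM hMc => ?_) hg hgp z
        (hEU (hzE (mem_zpowers z)))).symm
      refine h1 M (hM.trans hUQ) (Nat.eq_of_mul_eq_mul_right hp.out.pos ?_)
      rw [hMc, hU, pow_succ]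
  have hgQ := hHQ (bigN_le H hg)
  by_cases hp2 : p = 2
  · subst hp2
    refine mem_centralizer_of_four_fixed hQ hgp hgQ fun x hx hx4 => ?_
    have h4 : orderOf x ≤ 4 := Nat.le_of_dvd (by norm_num) (orderOf_dvd_of_pow_eq_one hx4)
    by_cases hd2 : 2 ≤ d
    · exact key x hx (h4.trans (Nat.pow_le_pow_right (n := 2) (by norm_num) hd2))
    obtain rfl : d = 1 := by omega
    by_cases h5 : orderOf x ≤ 2
    · exact key x hx h5
    have h6 : orderOf x = 4 := by
      have h7 := orderOf_dvd_of_pow_eq_one hx4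
      have h8 : orderOf x ≠ 3 := fun h => by rw [h] at h7; norm_num at h7
      omega
    exact (mem_centralizer_of_isCyclic (hQ.to_le (zpowers_le.2 hx)) inferInstance
      (h2 rfl _ (zpowers_le.2 hx) (by rwa [Nat.card_zpowers])) hg hgp x (mem_zpowers x)).symm
  · refine H4.mem_centralizer_of_omega_fixed hp2 hQ hgp hgQ fun x hx hxp => key x hx ?_
    exact (Nat.le_of_dvd hp.out.pos (orderOf_dvd_of_pow_eq_one hxp)).trans
      (Nat.le_self_pow hd.ne' p)

/-- A subgroup strongly closed in its normalizer is normalized by the normalizer of every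
`p`-subgroup containing it. -/
theorem normalizer_le_of_hSubgroup [Finite G] [hp : Fact p.Prime] {E Q : Subgroup G}
    (hE : ∀ g : G, cj g E ⊓ normalizer (E : Set G) ≤ E) (hQ : IsPGroup p Q) (hEQ : E ≤ Q) :
    normalizer (Q : Set G) ≤ normalizer (E : Set G) := by
  have h1 : Q ≤ normalizer (E : Set G) := by
    by_contra h
    have h2 : Q ⊓ normalizer (E : Set G) < Q :=
      lt_of_le_of_ne inf_le_left fun h' => h (h'.ge.trans inf_le_right)
    obtain ⟨x, hx, hx'⟩ := SetLike.exists_of_lt (lt_inf_normalizer_of_isPGroup hQ h2)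
    refine hx' ⟨hx.1, mem_normalizer_of_cj_le (le_trans (le_inf le_rfl ?_) (hE x))⟩
    exact (cj_le_of_mem_normalizer hx.2 (le_inf hEQ le_normalizer)).trans inf_le_right
  intro g hg
  exact mem_normalizer_of_cj_le (le_trans
    (le_inf le_rfl ((cj_le_of_mem_normalizer hg hEQ).trans h1)) (hE g))

end Cfsg.Agent.H73
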