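import Cfsg.Agent.H22.PSolvable
import Cfsg.Agent.H1.Hall
import Cfsg.Agent.H70.Syl
import Cfsg.Agent.H49.Prod
import Cfsg.Agent.H2.Basic
import Cfsg.Agent.H73.DerLen

/-! Hall `{p, q}`-subgroups of `p`-solvable groups. -/

set_option autoImplicit false

namespace Cfsg.Agent.H73

open Subgroup

universe u

theorem exists_hall_pq {p : ℕ} [hp : Fact p.Prime] (q : ℕ) [hq : Fact q.Prime] (G : Type u) [Group G]
    [Finite G] : IsPSolvable p G → ∃ L : Subgroup G, H1.Hall {p, q} L := by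
  refine H2.card_induction (P := fun G _ _ => IsPSolvable p G → ∃ L : Subgroup G,
    H1.Hall {p, q} L) G ?_
  intro G _ _ ih hG
  have quot : ∀ (M : Subgroup G) [M.Normal], M ≠ ⊥ →
      (H1.PiNum {p, q} (Nat.card M) ∨ H1.PiNum {p, q}ᶜ (Nat.card M)) →
      ∃ L : Subgroup G, H1.Hall {p, q} L := by
    intro M _ hM h
    obtain ⟨L, hL⟩ := ih (G ⧸ M) (card_quot_lt hM) (H22.IsPSolvable.quotient hG M)
    obtain ⟨K, hK, -⟩ := H1.Hall.exists_of_quotient M h L hL
    exact ⟨K, hK⟩
  by_cases h : (⊥ : Subgroup G) = ⊤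
  · refine ⟨⊥, fun r hr hd => ?_, fun r hr hd => ?_⟩
    · rw [card_bot] at hd
      exact absurd (Nat.dvd_one.1 hd) hr.one_lt.ne'
    · rw [h, index_top] at hd
      exact absurd (Nat.dvd_one.1 hd) hr.one_lt.ne'
  obtain ⟨M, hM, hlt, hc⟩ := H22.IsPSolvable.exists_normal_gt hG ⊥ h
  rw [relIndex_bot_left] at hc
  rcases hc with ⟨m, hc⟩ | hc
  · exact quot M hlt.ne' (Or.inl (hc ▸ H1.piNum_pow hp.out (by simp) m))
  obtain ⟨Q, hQ⟩ := H92.exists_sylIn q M
  by_cases hN : normalizer (Q : Set G) = ⊤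
  · haveI := normalizer_eq_top_iff.1 hN
    by_cases hQ1 : Q = ⊥
    · refine quot M hlt.ne' (Or.inr fun r hr hd hm => ?_)
      rcases hm with rfl | rfl
      · exact (Nat.Prime.coprime_iff_not_dvd hr).1 hc.symm hd
      · have := hQ.not_dvd_relIndex
        rw [hQ1, relIndex_bot_left] at this
        exact this hd
    · exact quot Q hQ1 (Or.inl (H1.piNum_of_isPGroup hq.out (by simp) hQ.pgroup))
  obtain ⟨L, hL1, hL2⟩ := ih (normalizer (Q : Set G))
    (by have := H49.card_lt_of_lt (lt_top_iff_ne_top.2 hN); rwa [card_top] at this)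
    (H22.IsPSolvable.subgroup hG _)
  refine ⟨L.map (Subgroup.subtype _), ?_, fun r hr hd => ?_⟩
  · rwa [card_map_of_injective (subtype_injective _)]
  · rw [index_map_subtype] at hd
    rcases (Nat.Prime.dvd_mul hr).1 hd with hd | hd
    · exact hL2 r hr hd
    have hF := H70.frattini_arg hQ (le_top : M ≤ ⊤) H70.norm_of_normal
    rw [top_inf_eq] at hF
    have e : (normalizer (Q : Set G)).index = (normalizer (Q : Set G)).relIndex M := by
      rw [← relIndex_top_right, ← hF, H49.relIndex_sup_of_norm (Or.inr H70.norm_of_normal)]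
    have hd' : r ∣ Q.relIndex M := (e ▸ hd).trans (relIndex_dvd_of_le_left M le_normalizer)
    rintro (rfl | rfl)
    · exact (Nat.Prime.coprime_iff_not_dvd hr).1 hc.symm (hd'.trans (relIndex_dvd_card _ _))
    · exact hQ.not_dvd_relIndex hd'

/-- A Hall `{p, q}`-subgroup of a `p`-solvable subgroup `N` above a given Sylow `p`-subgroup. -/
theorem exists_hall_pq_ge {G : Type*} [Group G] [Finite G] {p : ℕ} [hp : Fact p.Prime] (q : ℕ)
    [hq : Fact q.Prime] {T N : Subgroup G} (hN : IsPSolvable p N) (hT : H92.SylIn p T N) :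
    ∃ L : Subgroup G, T ≤ L ∧ L ≤ N ∧ ¬ q ∣ L.relIndex N ∧ H1.PiNum {p, q} (Nat.card L) := by
  obtain ⟨L0, h1, h2⟩ := exists_hall_pq q N hN
  set L := L0.map N.subtype with hL
  have hLN : L ≤ N := map_subtype_le _
  have hi : L.relIndex N = L0.index := H49.relIndex_map_subtype_self L0
  obtain ⟨R, hR⟩ := H92.exists_sylIn p L
  have hR' : H92.SylIn p R N := by
    refine H92.sylIn_of_not_dvd_relIndex (hR.le.trans hLN) hR.pgroup ?_
    rw [← relIndex_mul_relIndex R L N hR.le hLN, hp.out.dvd_mul, hi]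
    rintro (h | h)
    exacts [hR.not_dvd_relIndex h, h2 p hp.out h (by simp)]
  obtain ⟨g, hg, e⟩ := H70.sylIn_exists_cj_eq hR' hT
  refine ⟨H70.cj g L, e ▸ H70.cj_mono g hR.le, H70.cj_le_of_mem hg hLN, ?_, ?_⟩
  · have h3 := H49.card_mul_relIndex (H70.cj_le_of_mem hg hLN)
    rw [H70.card_cj, ← H49.card_mul_relIndex hLN] at h3
    rw [Nat.eq_of_mul_eq_mul_left (H49.card_pos' L) h3, hi]
    exact fun h => h2 q hq.out h (by simp)
  · rw [H70.card_cj, hL, card_map_of_injective (subtype_injective _)]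
    exact h1

end Cfsg.Agent.H73
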