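/-
The P(G,V)-theorem, part 2: best offenders normalize components.
-/
import Cfsg.Agent.H73.PGV1
import Cfsg.Agent.H50.Maschke
import Cfsg.Agent.S0599

set_option autoImplicit false

namespace Cfsg.Agent.H73

open Subgroup H72
open scoped commutatorElement

variable {G : Type*} [Group G]

/-- the configuration of a minimal counterexample to the P(G,V)-theorem -/
structure PGV (p : ℕ) (V A K : Subgroup G) : Prop where
  hV : IsElementaryAbelian p V
  hA : IsElementaryAbelian p A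
  AV : A ≤ normalizer (V : Set G)
  KV : K ≤ normalizer (V : Set G)
  comp : H44.Comp (A ⊔ K) K
  best : IsBestOffenderOn p V A
  nt : ⁅V, K⁆ ≠ ⊥
  faith : A ⊓ centralizer (V : Set G) = ⊥
  min : ∀ W, W < V → A ≤ normalizer (W : Set G) → K ≤ normalizer (W : Set G) → ⁅W, K⁆ = ⊥

theorem cj_le_normalizer {W K : Subgroup G} {a : G} (ha : a ∈ normalizer (W : Set G))
    (hK : K ≤ normalizer (W : Set G)) : cj a K ≤ normalizer (W : Set G) :=
  cj_le_of_mem ha hK

namespace PGV

variable [Finite G] {p : ℕ} [hp : Fact p.Prime] {V A K : Subgroup G} (h : PGV p V A K)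
include h

omit [Finite G] hp in
theorem comm {a b : G} (ha : a ∈ A) (hb : b ∈ A) : a * b = b * a :=
  have := h.hA.1
  H21.mul_comm_of_mem ha hb

omit [Finite G] hp h in
theorem sup_cj {a : G} (ha : a ∈ A) : A ⊔ cj a K = A ⊔ K := by
  refine le_antisymm (sup_le le_sup_left (cj_le_of_mem (mem_sup_left ha) le_sup_right))
    (sup_le le_sup_left ?_)
  have : cj a⁻¹ (cj a K) ≤ A ⊔ cj a K := cj_le_of_mem (mem_sup_left (inv_mem ha)) le_sup_right
  rwa [cj_inv_cj] at this

omit [Finite G] hp in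
theorem comp_cj {a : G} (ha : a ∈ A) : H44.Comp (A ⊔ K) (cj a K) :=
  h.comp.conj (le_normalizer (mem_sup_left ha))

omit [Finite G] hp in
theorem cj {a : G} (ha : a ∈ A) : PGV p V A (cj a K) where
  hV := h.hV
  hA := h.hA
  AV := h.AV
  KV := cj_le_normalizer (h.AV ha) h.KV
  comp := by rw [sup_cj ha]; exact h.comp_cj ha
  best := h.best
  nt := by
    rw [← cj_eq_of_mem_normalizer (h.AV ha), ← cj_commutator, Ne, cj_eq_bot_iff]
    exact h.nt
  faith := h.faith
  min W hW h1 h2 := by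
    have h3 : K ≤ normalizer (W : Set G) := by
      have := cj_le_normalizer (inv_mem (h1 ha)) h2
      rwa [cj_inv_cj] at this
    rw [← cj_eq_of_mem_normalizer (h1 ha), ← cj_commutator, h.min W hW h1 h3, cj_bot]

omit [Finite G] hp in
theorem cj_le_cent {a : G} (ha : a ∈ A) (hne : H72.cj a K ≠ K) :
    H72.cj a K ≤ centralizer (K : Set G) :=
  H21.commutator_eq_bot_iff'.1 (h.comp.commutator_eq_bot_of_ne (h.comp_cj ha) hne.symm)

omit [Finite G] hp in
theorem cj_le_cent' {a b : G} (ha : a ∈ A) (hb : b ∈ A) (hne : H72.cj a K ≠ H72.cj b K) :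
    H72.cj a K ≤ centralizer (H72.cj b K : Set G) :=
  H21.commutator_eq_bot_iff'.1 ((h.comp_cj hb).commutator_eq_bot_of_ne (h.comp_cj ha) hne.symm)

omit [Finite G] hp in
theorem le_normalizer_cj {a : G} (ha : a ∈ A) : K ≤ normalizer (H72.cj a K : Set G) := by
  by_cases hne : H72.cj a K = K
  · rw [hne]; exact le_normalizer
  · exact H21.le_normalizer_of_le_centralizer (le_centralizer_iff.1 (h.cj_le_cent ha hne))

omit [Finite G] hp in
theorem exists_not_cent : ∃ k ∈ K, k ∉ centralizer (K : Set G) :=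
  SetLike.not_le_iff_exists.1 h.comp.qs.not_le_centralizer

omit [Finite G] hp in
theorem commutator_E : ⁅V, ⨆ a : A, H72.cj (a : G) K⁆ = V := by
  have hE : (⨆ a : A, H72.cj (a : G) K) ≤ normalizer (V : Set G) :=
    iSup_le fun a => (h.cj a.2).KV
  have hKE : K ≤ ⨆ a : A, H72.cj (a : G) K := by
    have := le_iSup (fun a : A => H72.cj (a : G) K) 1
    rwa [OneMemClass.coe_one, cj_one] at this
  by_contra hne
  have h1 := h.min _ (lt_of_le_of_ne (H21.commutator_le_of_le_normalizer hE) hne)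
    (H21.le_normalizer_commutator h.AV (le_normalizer_of_cj_le fun g hg => by
      rw [cj_iSup]
      exact iSup_le fun a => by
        rw [← cj_mul]; exact le_iSup (fun a : A => H72.cj (a : G) K) ⟨g * a, mul_mem hg a.2⟩))
    (H21.le_normalizer_commutator h.KV (hKE.trans le_normalizer))
  refine h.nt (H44.commutator_eq_bot_of_perfect h.comp.perfect ?_)
  exact H44.commutator_eq_bot_mono h1 (commutator_mono le_rfl hKE) le_rfl

theorem eq_one_of_cent {b : G} (hb : b ∈ A) (hc : b ∈ centralizer (K : Set G)) : b = 1 := by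
  have hV1 : V ≠ ⊥ := fun h1 => h.nt (by rw [h1, commutator_bot_left])
  have hbA : zpowers b ≤ A := zpowers_le.2 hb
  have hlt : ⁅V, zpowers b⁆ < V := H21.commutator_lt_of_isPGroup
    (H21.IsElementaryAbelian.isPGroup h.hV)
    ((H21.IsElementaryAbelian.isPGroup h.hA).to_le hbA) (hbA.trans h.AV) hV1
  have hc' : ∀ a ∈ A, b ∈ centralizer (H72.cj a K : Set G) := fun a ha => by
    rw [← cj_centralizer, mem_cj, mul_assoc, h.comm hb ha]; simpa using hc
  have hAW : A ≤ normalizer ((⁅V, zpowers b⁆ : Subgroup G) : Set G) :=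
    have := h.hA.1
    H21.le_normalizer_commutator h.AV (H21.le_normalizer_of_le_comm le_rfl hbA)
  have h1 : ∀ a ∈ A, ⁅⁅V, zpowers b⁆, H72.cj a K⁆ = ⊥ := fun a ha =>
    (h.cj ha).min _ hlt hAW (H21.le_normalizer_commutator (h.cj ha).KV
      (H21.le_normalizer_of_le_centralizer (le_centralizer_iff.1 (zpowers_le.2 (hc' a ha)))))
  have h2 : ⁅⁅V, zpowers b⁆, ⨆ a : A, H72.cj (a : G) K⁆ = ⊥ := by
    rw [H21.commutator_eq_bot_iff']
    exact iSup_le fun a => H21.commutator_eq_bot_iff'.1 (h1 a a.2)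
  have h3 : ⁅zpowers b, ⨆ a : A, H72.cj (a : G) K⁆ = ⊥ := by
    rw [H21.commutator_eq_bot_iff']
    exact iSup_le fun a => le_centralizer_iff.1 (zpowers_le.2 (hc' a a.2))
  have h4 := H21.three_subgroups h2 (by rw [h3, commutator_bot_left])
  rw [h.commutator_E, H21.commutator_eq_bot_iff'] at h4
  have : b ∈ A ⊓ centralizer (V : Set G) := ⟨hb, h4 (mem_zpowers b)⟩
  rwa [h.faith, mem_bot] at this

section diag

variable {a : G} (ha : a ∈ A) (hK : H72.cj a K ≠ K)
include ha hK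

omit [Finite G] in
theorem cj_pow_ne {i : ℕ} (hi : 0 < i) (hi' : i < p) : H72.cj (a ^ i) K ≠ K := by
  intro h1
  rw [cj_eq_iff] at h1
  refine hK (cj_eq_iff.2 ?_)
  have ha1 : a ≠ 1 := by rintro rfl; exact hK (cj_one K)
  have ho : orderOf a = p := orderOf_eq_prime (h.hA.2 a ha) ha1
  obtain ⟨m, hm⟩ := exists_pow_eq_self_of_coprime (x := a) (n := i) (by
    rw [ho]; exact (Nat.coprime_of_lt_prime hi.ne' hi' hp.out).symm)
  rw [← hm]
  exact pow_mem h1 m

omit [Finite G] in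
theorem commute_pow {i j : ℕ} (hij : i < j) (hj : j < p) {x y : G} (hx : x ∈ K) (hy : y ∈ K) :
    Commute (a ^ i * y * (a ^ i)⁻¹) (a ^ j * x * (a ^ j)⁻¹) := by
  obtain ⟨d, rfl⟩ := Nat.exists_eq_add_of_lt hij
  have h1 := h.cj_le_cent (pow_mem ha (d + 1)) (h.cj_pow_ne ha hK (by omega) (by omega))
    (conj_mem_cj hx) y hy
  have h2 : a ^ (i + d + 1) = a ^ i * a ^ (d + 1) := by rw [← pow_add, add_assoc]
  rw [h2, Commute, SemiconjBy]
  calc a ^ i * y * (a ^ i)⁻¹ * (a ^ i * a ^ (d + 1) * x * (a ^ i * a ^ (d + 1))⁻¹)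
      = a ^ i * (y * (a ^ (d + 1) * x * (a ^ (d + 1))⁻¹)) * (a ^ i)⁻¹ := by group
    _ = _ := by rw [h1]; group

omit [Finite G] in
theorem dg_mul' {x y : G} (hx : x ∈ K) (hy : y ∈ K) : dg a p (x * y) = dg a p x * dg a p y :=
  dg_mul fun _ _ hij hj => h.commute_pow ha hK hij hj hx hy

/-- the diagonal embedding -/
def dhom : K →* G := MonoidHom.mk' (fun x => dg a p x) fun x y => h.dg_mul' ha hK x.2 y.2

omit [Finite G] in
theorem dg_comm' {x : G} (hx : x ∈ K) : a * dg a p x = dg a p x * a :=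
  dg_comm hp.out.ne_zero (h.hA.2 a ha) fun i hi hi' => by
    simpa using (h.commute_pow ha hK hi hi' hx hx).symm

omit [Finite G] in
theorem dg_eq {x : G} (hx : x ∈ K) : ∃ r ∈ centralizer (K : Set G), dg a p x = x * r :=
  dg_eq_mul hp.out.ne_zero fun i hi hi' =>
    h.cj_le_cent (pow_mem ha i) (h.cj_pow_ne ha hK hi hi') (conj_mem_cj hx)

omit [Finite G] hp hK h in
theorem dg_mem_of {x : G} (hx : x ∈ K) {H : Subgroup G} (h1 : A ≤ H) (h2 : K ≤ H) :
    dg a p x ∈ H :=
  dg_mem fun i _ => mul_mem (mul_mem (h1 (pow_mem ha i)) (h2 hx)) (inv_mem (h1 (pow_mem ha i)))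

omit [Finite G] in
theorem dg_mem_normalizer {x : G} (hx : x ∈ K) :
    dg a p x ∈ normalizer ((⁅V, zpowers a⁆ : Subgroup G) : Set G) :=
  H44.normalizer_inf_le_normalizer_commutator _ _ ⟨dg_mem_of ha hx h.AV h.KV,
    centralizer_le_normalizer _ (H21.mem_centralizer_zpowers.2 (h.dg_comm' ha hK hx).symm)⟩

omit [Finite G] in
theorem dg_pow_conj (i : ℕ) {x : G} (hx : x ∈ K) : dg a p (a ^ i * x * (a ^ i)⁻¹) = dg a p x := by
  rw [← dg_conj (by rw [← pow_succ, ← pow_succ']), mul_inv_eq_iff_eq_mul]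
  exact ((show Commute a _ from h.dg_comm' ha hK hx).pow_left i).eq

theorem dg_mem_cent {x : G} (hx : x ∈ K) :
    dg a p x ∈ centralizer ((⁅V, zpowers a⁆ : Subgroup G) : Set G) := by
  set C := centralizer ((⁅V, zpowers a⁆ : Subgroup G) : Set G) with hC
  have hVc := h.hV.1
  have hnC : ∀ x ∈ K, dg a p x ∈ normalizer (C : Set G) := fun x hx =>
    H21.normalizer_le_normalizer_centralizer _ (h.dg_mem_normalizer ha hK hx)
  let N : Subgroup G := (C.comap (h.dhom ha hK)).map K.subtype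
  have hmem : ∀ x ∈ K, x ∈ N ↔ dg a p x ∈ C := fun x hx =>
    ⟨by rintro ⟨y, hy, rfl⟩; exact hy, fun h1 => ⟨⟨x, hx⟩, h1, rfl⟩⟩
  have hNK : N ≤ K := map_subtype_le _
  have hcomm : ∀ x ∈ K, ∀ y ∈ K, dg a p ⁅x, y⁆ = ⁅dg a p x, dg a p y⁆ := fun x hx y hy =>
    map_commutatorElement (h.dhom ha hK) ⟨x, hx⟩ ⟨y, hy⟩
  have hsuff : (∀ x ∈ K, ∀ y ∈ K, ⁅dg a p x, dg a p y⁆ ∈ C) → dg a p x ∈ C := fun h1 => by
    rw [← hmem x hx]
    have : ⁅K, K⁆ ≤ N := commutator_le.2 fun x hx y hy => by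
      rw [hmem ⁅x, y⁆ (mul_mem (mul_mem (mul_mem hx hy) (inv_mem hx)) (inv_mem hy)), hcomm x hx y hy]
      exact h1 x hx y hy
    rw [h.comp.perfect] at this
    exact this hx
  obtain ⟨hbest, -, hne⟩ := S0599.result V A h.hV h.AV h.best V le_rfl
  have ha1 : a ≠ 1 := by rintro rfl; exact hK (cj_one K)
  have ho : orderOf a = p := orderOf_eq_prime (h.hA.2 a ha) ha1
  have hVA : ⁅V, A⁆ ≠ ⊥ := fun h1 => ha1 (by
    have : a ∈ A ⊓ centralizer (V : Set G) := ⟨ha, H21.commutator_eq_bot_iff'.1 h1 ha⟩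
    rwa [h.faith, mem_bot] at this)
  set B := A ⊓ centralizer ((⁅V, A⁆ : Subgroup G) : Set G) with hB
  have hBC : B ≤ C := inf_le_right.trans
    (H21.centralizer_anti (commutator_mono le_rfl (zpowers_le.2 ha)))
  by_cases hBa : B ≤ zpowers a
  · have hB1 : B ≠ ⊥ := fun h1 => hne hVA (by rw [h1, commutator_bot_right])
    have hcard : Nat.card (zpowers a) = p := by rw [Nat.card_zpowers, ho]
    have hBeq : B = zpowers a := by
      refine H21.eq_of_le_of_card_le hBa ?_
      have h1 := card_dvd_of_le hBa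
      rw [hcard] at h1 ⊢
      rcases (Nat.dvd_prime hp.out).1 h1 with h2 | h2
      · exact absurd (card_eq_one.1 h2) hB1
      · exact h2.ge
    have h1 := H21.IsBestOffenderOn.card_le hbest
    rw [hBeq, hcard, ← H21.card_centralizer_mul_card_commutator (h.AV ha), mul_comm p] at h1
    have h2 := Nat.le_of_mul_le_mul_left h1 Nat.card_pos
    have hpU : IsPGroup p ↥(⁅V, zpowers a⁆) := (H21.IsElementaryAbelian.isPGroup h.hV).to_le
      (H21.commutator_le_of_le_normalizer (zpowers_le.2 (h.AV ha)))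
    obtain ⟨n, hn⟩ := hpU.exists_card_eq
    have h3 : n ≤ 1 := by
      rw [hn] at h2
      exact (Nat.pow_le_pow_iff_right hp.out.one_lt).1 (by simpa using h2)
    have hcyc : IsCyclic ↥(⁅V, zpowers a⁆) := isCyclic_of_card_dvd_prime (p := p) (by
      rw [hn]; simpa using pow_dvd_pow p h3)
    exact hsuff fun x hx y hy => commutator_mem_centralizer_of_isCyclic hcyc
      (h.dg_mem_normalizer ha hK hx) (h.dg_mem_normalizer ha hK hy)
  obtain ⟨b, hbB, hba⟩ := SetLike.not_le_iff_exists.1 hBa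
  have hb : b ∈ A := hbB.1
  have hbC : ∀ x ∈ K, dg a p (b * x * b⁻¹) * (dg a p x)⁻¹ ∈ C := fun x hx => by
    rw [← dg_conj (h.comm hb ha), mul_assoc, mul_assoc, ← mul_assoc (dg a p x)]
    exact mul_mem (hBC hbB) (conj_mem_of_mem_normalizer (hnC x hx) (inv_mem (hBC hbB)))
  by_cases hex : ∃ i : ℕ, H72.cj (a ^ i * b) K = K
  · obtain ⟨i, hi⟩ := hex
    rw [cj_eq_iff] at hi
    have hb1 : a ^ i * b ≠ 1 := fun h1 => hba (by
      rw [← eq_inv_of_mul_eq_one_right h1 |>.symm]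
      exact inv_mem (pow_mem (mem_zpowers a) i))
    have hbc : a ^ i * b ∉ centralizer (K : Set G) := fun h1 =>
      hb1 (h.eq_one_of_cent (mul_mem (pow_mem ha i) hb) h1)
    rcases h.comp.qs.normal N hNK (le_normalizer_of_cj_le fun g hg y hy => by
      rw [mem_cj] at hy
      have hyK : y ∈ K := by simpa [mul_assoc] using mul_mem (mul_mem hg (hNK hy)) (inv_mem hg)
      rw [hmem _ (hNK hy), h.dg_mul' ha hK (mul_mem (inv_mem hg) hyK) hg,
        h.dg_mul' ha hK (inv_mem hg) hyK] at hy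
      rw [hmem _ hyK]
      have h1 : dg a p g⁻¹ = (dg a p g)⁻¹ := map_inv (h.dhom ha hK) ⟨g, hg⟩
      rw [h1] at hy
      have := conj_mem_of_mem_normalizer (hnC g hg) hy
      simpa [mul_assoc] using this) with h1 | h1
    · rw [← hmem x hx, h1]; exact hx
    · refine absurd (mem_centralizer_of_perfect h.comp.perfect hi fun l hl => h1 ?_) hbc
      have h2 := conj_mem_of_mem_normalizer hi hl
      rw [commutatorElement_def, hmem _ (mul_mem h2 (inv_mem hl)), h.dg_mul' ha hK h2 (inv_mem hl)]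
      have h3 : dg a p l⁻¹ = (dg a p l)⁻¹ := map_inv (h.dhom ha hK) ⟨l, hl⟩
      have h4 : a ^ i * b * l * (a ^ i * b)⁻¹ = a ^ i * (b * l * b⁻¹) * (a ^ i)⁻¹ := by group
      have h5 : H72.cj a (H72.cj b K) ≠ H72.cj b K := fun h6 => hK (by
        rwa [← cj_mul, h.comm ha hb, cj_mul, cj_inj] at h6)
      rw [h3, h4, (h.cj hb).dg_pow_conj ha h5 i (conj_mem_cj hl)]
      exact hbC l hl
  · push Not at hex
    refine hsuff fun x hx y hy => ?_
    have h1 : ∀ z ∈ K, dg a p (b * x⁻¹ * b⁻¹) ∈ centralizer {dg a p z} := fun z hz => by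
      refine dg_mem fun i _ => mem_centralizer_singleton_iff.2 ?_
      refine (mem_centralizer_singleton_iff.1 (dg_mem fun j hj => ?_)).symm
      rw [mem_centralizer_singleton_iff]
      have h2 : H72.cj (a ^ i * b) K ≠ H72.cj (a ^ j) K := fun h3 => hex (p - j + i) (by
        have h4 : a ^ (p - j) * a ^ j = 1 := by
          rw [← pow_add, Nat.sub_add_cancel hj.le, h.hA.2 a ha]
        rw [pow_add, mul_assoc, cj_mul, h3, ← cj_mul, h4, cj_one])
      have h5 := h.cj_le_cent' (mul_mem (pow_mem ha i) hb) (pow_mem ha j) h2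
        (conj_mem_cj (inv_mem hx)) _ (conj_mem_cj hz)
      have h6 : a ^ i * (b * x⁻¹ * b⁻¹) * (a ^ i)⁻¹ = a ^ i * b * x⁻¹ * (a ^ i * b)⁻¹ := by group
      rw [h6]; exact h5
    have h2 := hbC _ (inv_mem hx)
    have h3 : dg a p x⁻¹ = (dg a p x)⁻¹ := map_inv (h.dhom ha hK) ⟨x, hx⟩
    rw [h3, inv_inv] at h2
    set w := dg a p (b * x⁻¹ * b⁻¹)
    have h4 := mem_centralizer_singleton_iff.1 (h1 x hx)
    have h5 := mem_centralizer_singleton_iff.1 (h1 y hy)
    have h6 := mul_mem h2 (conj_mem_of_mem_normalizer (hnC y hy) (inv_mem h2))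
    convert h6 using 1
    rw [h4, commutatorElement_def]
    calc dg a p x * dg a p y * (dg a p x)⁻¹ * (dg a p y)⁻¹
        = dg a p x * (w * dg a p y * w⁻¹) * (dg a p x)⁻¹ * (dg a p y)⁻¹ := by rw [h5]; group
      _ = _ := by group

theorem commutator_dg_mem {x v : G} (hx : x ∈ K) (hv : v ∈ V) :
    ⁅dg a p x, v⁆ ∈ V ⊓ centralizer {a} := by
  have hVc := h.hV.1
  have h1 : ⁅dg a p x, v⁆ ∈ V := H21.commutatorElement_mem_right (dg_mem_of ha hx h.AV h.KV) hv
  refine ⟨h1, mem_centralizer_singleton_iff.2 ?_⟩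
  have hu : ⁅v, a⁆ ∈ ⁅V, zpowers a⁆ := commutator_mem_commutator hv (mem_zpowers a)
  have h2 := h.dg_mem_cent ha hK hx _ hu
  have h3 := h.dg_comm' ha hK hx
  have h4 := H21.mul_comm_of_mem h1 (H21.commutatorElement_mem_left (h.AV ha) hv)
  set d := dg a p x
  have h5 : a * v * a⁻¹ = ⁅v, a⁆⁻¹ * v := by simp only [commutatorElement_def]; group
  have h6 : a * d * a⁻¹ = d := by rw [h3]; group
  have h7 : d * ⁅v, a⁆⁻¹ = ⁅v, a⁆⁻¹ * d := (show Commute ⁅v, a⁆ d from h2).inv_left.symm.eq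
  rw [eq_comm, ← mul_inv_eq_iff_eq_mul]
  calc a * ⁅d, v⁆ * a⁻¹ = (a * d * a⁻¹) * (a * v * a⁻¹) * (a * d * a⁻¹)⁻¹ * (a * v * a⁻¹)⁻¹ := by
        rw [commutatorElement_def]; group
    _ = ⁅v, a⁆⁻¹ * (⁅d, v⁆ * ⁅v, a⁆) := by
        rw [h6, h5, ← mul_assoc d, h7, commutatorElement_def d v]; group
    _ = ⁅d, v⁆ := by rw [h4]; group

omit [Finite G] hp hK in
theorem commutator_commutator_mem {k v : G} (hk : k ∈ K) (hv : v ∈ V) :
    ⁅v, ⁅a, k⁆⁆ ∈ ⁅V, zpowers a⁆ ⊔ H72.cj k ⁅V, zpowers a⁆ := by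
  have h1 : k * ⁅k⁻¹ * v * k, a⁻¹⁆ * k⁻¹ ∈ H72.cj k ⁅V, zpowers a⁆ :=
    conj_mem_cj (commutator_mem_commutator (conj_mem_of_mem_normalizer' (h.KV hk) hv)
      (inv_mem (mem_zpowers a)))
  set w := k * ⁅k⁻¹ * v * k, a⁻¹⁆ * k⁻¹ with hw
  have hwV : w ∈ V := conj_mem_of_mem_normalizer (h.KV hk) (H21.commutatorElement_mem_left
    (inv_mem (h.AV ha)) (conj_mem_of_mem_normalizer' (h.KV hk) hv))
  have h2 : ⁅v, ⁅a, k⁆⁆ = ⁅v, a⁆ * (⁅w, a⁆⁻¹ * w) := by
    simp only [hw, commutatorElement_def]; group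
  rw [h2]
  exact mul_mem (mem_sup_left (commutator_mem_commutator hv (mem_zpowers a)))
    (mul_mem (mem_sup_left (inv_mem (commutator_mem_commutator hwV (mem_zpowers a))))
      (mem_sup_right h1))

theorem commutator_le_cent {g : G} (hg : g ∈ A) (h1 : H72.cj g K ≠ K)
    (h2 : H72.cj g K ≠ H72.cj a K) : ⁅V, K⁆ ≤ centralizer (H72.cj g K : Set G) := by
  have hVc := h.hV.1
  obtain ⟨k, hk, hkc⟩ := h.exists_not_cent
  set M := H72.cj g K with hM
  have hMa : H72.cj a M ≠ M := fun h6 => hK (by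
    rwa [hM, ← cj_mul, h.comm ha hg, cj_mul, cj_inj] at h6)
  have hnc : ∀ c : G, H72.cj c K = M → c * k * c⁻¹ ∉ centralizer (M : Set G) := fun c hc h3 => by
    rw [← hc, ← cj_centralizer, conj_mem_cj_iff] at h3
    exact hkc h3
  obtain ⟨m, hm, hmc, hmk⟩ : ∃ m ∈ M, m ∉ centralizer (M : Set G) ∧
      dg a p m * k = k * dg a p m := by
    by_cases hex : ∃ i : ℕ, H72.cj (a ^ i) K = M
    · obtain ⟨i, hi⟩ := hex
      refine ⟨_, hi ▸ conj_mem_cj hk, hnc _ hi, ?_⟩
      rw [h.dg_pow_conj ha hK i hk]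
      obtain ⟨r, hr, h3⟩ := h.dg_eq ha hK hk
      rw [h3, mul_assoc, ← hr k hk]
    · push Not at hex
      refine ⟨_, conj_mem_cj hk, hnc g rfl, mem_centralizer_singleton_iff.1 (dg_mem fun j hj => ?_)⟩
      have h3 : H72.cj (a ^ j * g) K ≠ K := fun h3 => hex (p - j) (by
        have h4 : a ^ (p - j) * a ^ j = 1 := by
          rw [← pow_add, Nat.sub_add_cancel hj.le, h.hA.2 a ha]
        conv_lhs => rw [← h3, ← cj_mul, ← mul_assoc, h4, one_mul])
      have h5 := h.cj_le_cent (mul_mem (pow_mem ha j) hg) h3 (conj_mem_cj hk) k hk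
      have h6 : a ^ j * (g * k * g⁻¹) * (a ^ j)⁻¹ = a ^ j * g * k * (a ^ j * g)⁻¹ := by group
      rw [mem_centralizer_singleton_iff, h6, h5]
  have hMX : M ≤ A ⊔ K := (h.comp_cj hg).le
  have hak : a * k * a⁻¹ ∈ centralizer (K : Set G) := h.cj_le_cent ha hK (conj_mem_cj hk)
  have ht : ⁅a, k⁆ = k⁻¹ * (a * k * a⁻¹) := by
    rw [commutatorElement_def, hak _ (inv_mem hk)]
  have htV : ⁅a, k⁆ ∈ normalizer (V : Set G) :=
    mul_mem (mul_mem (mul_mem (h.AV ha) (h.KV hk)) (inv_mem (h.AV ha))) (inv_mem (h.KV hk))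
  have htM : ⁅a, k⁆ ∈ centralizer (M : Set G) := by
    rw [ht]
    exact mul_mem (inv_mem (le_centralizer_iff.1 (h.cj_le_cent hg h1) hk))
      (h.cj_le_cent' ha hg h2.symm (conj_mem_cj hk))
  have h3 : M ≤ centralizer ((⁅V, zpowers ⁅a, k⁆⁆ : Subgroup G) : Set G) ⊓ (A ⊔ K) := by
    obtain ⟨r, hr, h3⟩ := (h.cj hg).dg_eq ha hMa hm
    refine Comp.le_of_mul_mem (h.comp_cj hg) inf_le_right (H21.le_normalizer_inf
      (H21.le_normalizer_centralizer (H21.le_normalizer_commutator (h.cj hg).KV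
        (H21.le_normalizer_of_le_centralizer (le_centralizer_iff.1 (zpowers_le.2 htM)))))
      (hMX.trans le_normalizer)) hr hmc ?_
    rw [← h3]
    refine ⟨?_, dg_mem_of ha hm le_sup_left hMX⟩
    have h4 := (h.cj hg).dg_mem_cent ha hMa hm
    refine H21.centralizer_anti (Y := ⁅V, zpowers a⁆ ⊔ H72.cj k ⁅V, zpowers a⁆) (fun u hu => ?_) ?_
    · obtain ⟨v, hv, rfl⟩ := (H21.mem_commutator_zpowers htV).1 hu
      exact h.commutator_commutator_mem ha hk hv
    · rw [H21.centralizer_sup]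
      refine ⟨h4, ?_⟩
      change _ ∈ centralizer _
      rw [← cj_centralizer, mem_cj, mul_assoc, hmk]
      simpa using h4
  have hKM : K ≤ normalizer ((V ⊓ centralizer (M : Set G) : Subgroup G) : Set G) :=
    H21.le_normalizer_inf h.KV (H21.le_normalizer_centralizer (h.le_normalizer_cj hg))
  have h4 : K ≤ H21.commStab V (V ⊓ centralizer (M : Set G)) ⊓ (A ⊔ K) := by
    refine Comp.le_of_mul_mem h.comp inf_le_right (H21.le_normalizer_inf
      (fun x hx => mem_normalizer_commStab (h.KV hx) (hKM hx)) (le_sup_right.trans le_normalizer))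
      hak (l := k⁻¹) (by simpa using hkc) ?_
    rw [← ht]
    refine ⟨⟨?_, fun v hv => ⟨H21.commutatorElement_mem_right htV hv, ?_⟩⟩, ?_⟩
    · exact H21.le_normalizer_inf (A := zpowers ⁅a, k⁆) (zpowers_le.2 htV)
        (H21.le_normalizer_centralizer (H21.le_normalizer_of_le_centralizer (zpowers_le.2 htM)))
        (mem_zpowers _)
    · rw [← commutatorElement_inv]
      exact Subgroup.inv_mem _ (le_centralizer_iff.1 (h3.trans inf_le_left)
        (commutator_mem_commutator hv (mem_zpowers _)))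
    · exact mul_mem (mul_mem (mul_mem (mem_sup_left ha) (mem_sup_right hk))
        (Subgroup.inv_mem _ (mem_sup_left ha))) (Subgroup.inv_mem _ (mem_sup_right hk))
  rw [commutator_comm]
  exact (H21.le_commStab.1 (h4.trans inf_le_left)).2.trans inf_le_right

theorem false_of_three {a' : G} (ha' : a' ∈ A) (hK' : H72.cj a' K ≠ K)
    (hne : H72.cj a K ≠ H72.cj a' K) : False := by
  have hVc := h.hV.1
  have h1 : ∀ g ∈ A, H72.cj g K ≠ K → ⁅V, K⁆ ≤ centralizer (H72.cj g K : Set G) := fun g hg hgK => by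
    by_cases h2 : H72.cj g K = H72.cj a K
    · exact h.commutator_le_cent ha' hK' hg hgK (h2 ▸ hne)
    · exact h.commutator_le_cent ha hK hg hgK h2
  have h2 : H72.cj a ⁅V, K⁆ ≤ centralizer (K : Set G) := by
    have h3 := cj_mono a (h1 a⁻¹ (inv_mem ha) fun h4 => hK (by
      conv_lhs => rw [← h4, cj_cj_inv]))
    rwa [cj_centralizer, cj_cj_inv] at h3
  have hle : ⁅V, K⁆ ≤ V := H21.commutator_le_of_le_normalizer h.KV
  refine h.nt (H44.commutator_eq_bot_of_perfect h.comp.perfect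
    (H44.commutator_eq_bot_of_perfect h.comp.perfect ?_))
  rw [commutator_comm, H21.commutator_eq_bot_iff', commutator_comm, commutator_le]
  intro l hl v hv
  obtain ⟨r, hr, h3⟩ := dg_eq_mul (a := a) (x := l) hp.out.ne_zero
    (H := centralizer ((⁅V, K⁆ : Subgroup G) : Set G)) fun i hi hi' =>
      le_centralizer_iff.1 (h1 _ (pow_mem ha i) (h.cj_pow_ne ha hK hi hi')) (conj_mem_cj hl)
  have h4 : ⁅l, v⁆ = ⁅dg a p l, v⁆ := by
    rw [h3, commutatorElement_def, commutatorElement_def, mul_assoc l r v, ← hr v hv]; group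
  have hu : ⁅v, a⁆ ∈ ⁅V, zpowers a⁆ := commutator_mem_commutator (hle hv) (mem_zpowers a)
  have h5 := h.dg_mem_cent ha hK hl _ hu
  have hn : dg a p l ∈ normalizer ((H72.cj a ⁅V, K⁆ : Subgroup G) : Set G) := by
    obtain ⟨r, hr, h3⟩ := dg_eq_mul (a := a) (x := a * l * a⁻¹) hp.out.ne_zero
      (H := centralizer ((H72.cj a ⁅V, K⁆ : Subgroup G) : Set G)) fun i hi hi' => by
        rw [← cj_centralizer, mem_cj]
        have := le_centralizer_iff.1 (h1 _ (pow_mem ha i) (h.cj_pow_ne ha hK hi hi'))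
          (conj_mem_cj hl)
        convert this using 1
        group
    have h6 := h.dg_pow_conj ha hK 1 hl
    rw [pow_one] at h6
    rw [← h6, h3]
    refine mul_mem ?_ (centralizer_le_normalizer _ hr)
    rw [← cj_normalizer, conj_mem_cj_iff]
    exact H21.le_normalizer_commutator h.KV le_normalizer hl
  set d := dg a p l
  have hw : a * v * a⁻¹ ∈ H72.cj a ⁅V, K⁆ := conj_mem_cj hv
  have h7 := H21.commutatorElement_mem_right hn hw
  have h8 : ⁅d, a * v * a⁻¹⁆ ∈ V := H21.commutatorElement_mem_right (dg_mem_of ha hl h.AV h.KV)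
    (conj_mem_of_mem_normalizer (h.AV ha) (hle hv))
  have h9 := H21.mul_comm_of_mem h8 (H21.commutatorElement_mem_left (h.AV ha) (hle hv))
  have h10 : ⁅d, v⁆ = ⁅d, a * v * a⁻¹⁆ := by
    have h11 : v = ⁅v, a⁆ * (a * v * a⁻¹) := by rw [commutatorElement_def]; group
    calc ⁅d, v⁆ = d * ⁅v, a⁆ * (a * v * a⁻¹) * d⁻¹ * (⁅v, a⁆ * (a * v * a⁻¹))⁻¹ := by
          rw [mul_assoc d, ← h11, commutatorElement_def]
      _ = ⁅v, a⁆ * ⁅d, a * v * a⁻¹⁆ * ⁅v, a⁆⁻¹ := by
          rw [← h5, commutatorElement_def d]; group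
      _ = _ := by rw [← h9]; group
  rw [h4, h10]
  exact h2 h7

omit hp in
theorem false_of_index_two (h2 : (centralizer ({a} : Set G)).relIndex V = 2) (hp2 : p = 2) :
    False := by
  have hVc := h.hV.1
  obtain ⟨k, hk, hkc⟩ := QS.exists_pow_not_mem h.comp.qs
  have hU : Nat.card ↥(⁅V, zpowers a⁆) = 2 := by
    rw [H21.card_commutator_zpowers_eq_relIndex (h.AV ha), H21.centralizer_zpowers, h2]
  have hUV : ⁅V, zpowers a⁆ ≤ V := H21.commutator_le_of_le_normalizer (zpowers_le.2 (h.AV ha))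
  have hUV' : H72.cj k ⁅V, zpowers a⁆ ≤ V := cj_le_of_mem_normalizer (h.KV hk) hUV
  set W := ⁅V, zpowers a⁆ ⊔ H72.cj k ⁅V, zpowers a⁆ with hW
  have hWV : W ≤ V := sup_le hUV hUV'
  have hcW : Nat.card W ≤ 4 := by
    have h3 := H21.card_sup_mul_card_inf (H21.le_normalizer_of_le_comm hUV' hUV)
    rw [card_cj, hU] at h3
    exact Nat.le_of_dvd (by norm_num) (Dvd.intro _ h3)
  have htV : ⁅a, k⁆ ∈ normalizer (V : Set G) :=
    mul_mem (mul_mem (mul_mem (h.AV ha) (h.KV hk)) (inv_mem (h.AV ha))) (inv_mem (h.KV hk))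
  have h3 : ∀ v ∈ V, ⁅⁅a, k⁆, v⁆ ∈ W := fun v hv => by
    rw [← commutatorElement_inv]
    exact inv_mem (h.commutator_commutator_mem ha hk hv)
  have htW : ⁅a, k⁆ ∈ normalizer (W : Set G) := mem_normalizer_of_conj_mem fun w hw => by
    simpa [commutatorElement_def _ w] using mul_mem (h3 w (hWV hw)) hw
  have h4 := pow_mem_centralizer_of_card_le hcW htW
  have h5 := (pow_mem (show ⁅a, k⁆ ∈ H21.commStab V W from ⟨htW, h3⟩) (Nat.factorial 4)).2
  set s := ⁅a, k⁆ ^ Nat.factorial 4 with hs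
  have h6 : s ^ 2 ∈ centralizer (V : Set G) := fun v hv => by
    have h7 := h4 _ (h5 v hv)
    have h8 := h.hV.2 _ (hWV (h5 v hv))
    rw [hp2, sq] at h8
    have h9 : s * v = ⁅s, v⁆ * v * s := by rw [commutatorElement_def]; group
    calc v * s ^ 2 = (⁅s, v⁆ * ⁅s, v⁆) * v * s * s := by rw [h8, sq]; group
      _ = ⁅s, v⁆ * (s * v) * s := by rw [h9]; group
      _ = s * (⁅s, v⁆ * v * s) := by rw [← mul_assoc, h7]; group
      _ = s ^ 2 * v := by rw [← h9, sq]; group
  have hak : a * k * a⁻¹ ∈ centralizer (K : Set G) := h.cj_le_cent ha hK (conj_mem_cj hk)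
  have ht : ⁅a, k⁆ = k⁻¹ * (a * k * a⁻¹) := by
    rw [commutatorElement_def, hak _ (inv_mem hk)]
  have h7 : s ^ 2 = (k ^ 48)⁻¹ * (a * k * a⁻¹) ^ 48 := by
    rw [hs, ← pow_mul, ht, (show Commute k⁻¹ _ from hak _ (inv_mem hk)).mul_pow, inv_pow]; rfl
  have h8 : K ≤ centralizer (V : Set G) ⊓ (A ⊔ K) := by
    refine Comp.le_of_mul_mem h.comp inf_le_right (H21.le_normalizer_inf
      (H21.le_normalizer_centralizer h.KV) (le_sup_right.trans le_normalizer))
      (pow_mem hak 48) (l := (k ^ 48)⁻¹) (by simpa using hkc) ?_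
    rw [← h7]
    exact ⟨h6, pow_mem (pow_mem (mul_mem (mul_mem (mul_mem (mem_sup_left ha) (mem_sup_right hk))
        (inv_mem (mem_sup_left ha))) (inv_mem (mem_sup_right hk))) _) _⟩
  exact h.nt (H21.commutator_eq_bot_iff'.2 (h8.trans inf_le_left))

theorem le_sup_of_two (hp2 : p = 2) (h2 : ∀ g ∈ A, H72.cj g K ≠ K → H72.cj g K = H72.cj a K)
    {a' : G} (ha' : a' ∈ A) (hK' : H72.cj a' K ≠ K) (hne : a ≠ a') :
    V ≤ (V ⊓ centralizer {a}) ⊔ (V ⊓ centralizer {a'}) := by
  have hVc := h.hV.1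
  set T := (V ⊓ centralizer {a}) ⊔ (V ⊓ centralizer {a'}) with hT
  have hTV : T ≤ V := sup_le inf_le_left inf_le_left
  have hst : ∀ d, (∀ v ∈ V, ⁅d, v⁆ ∈ T) → d ∈ H21.commStab V T := fun d hd =>
    ⟨mem_normalizer_of_conj_mem fun w hw => by
      simpa [commutatorElement_def _ w] using mul_mem (hd w (hTV hw)) hw, hd⟩
  have hdg : ∀ c x : G, dg c p x = x * (c * x * c⁻¹) := fun c x => by
    rw [hp2, dg_succ', dg_succ', dg_zero]; group
  have h3 : ∀ x ∈ K, x * (a * x * a⁻¹) ∈ H21.commStab V T := fun x hx => hdg a x ▸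
    hst _ fun v hv => mem_sup_left (h.commutator_dg_mem ha hK hx hv)
  have h4 : ∀ x ∈ K, x * (a' * x * a'⁻¹) ∈ H21.commStab V T := fun x hx => hdg a' x ▸
    hst _ fun v hv => mem_sup_right (h.commutator_dg_mem ha' hK' hx hv)
  have haa : a * a = 1 := by have := h.hA.2 a ha; rwa [hp2, sq] at this
  have hai : a⁻¹ = a := inv_eq_of_mul_eq_one_right haa
  have hM := h.cj ha
  have hKM : K ≤ centralizer (H72.cj a K : Set G) := le_centralizer_iff.1 (h.cj_le_cent ha hK)
  have h5 : H72.cj a K ≤ H21.commStab V T := by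
    rcases hM.comp.qs.normal (H21.commStab V T ⊓ H72.cj a K) inf_le_right
      (fun g hg => mem_normalizer_of_conj_mem fun y hy => ⟨by
        have h6 := h3 _ (mem_cj.1 hg)
        have h7 := hKM (mem_cj.1 hg) _ (mul_mem (mul_mem hg hy.2) (inv_mem hg))
        have h8 := mul_mem (mul_mem h6 hy.1) (inv_mem h6)
        refine (congrArg (· ∈ H21.commStab V T) ?_).mpr h8
        calc g * y * g⁻¹ = (a⁻¹ * g * a) * (g * y * g⁻¹) * (a⁻¹ * g * a)⁻¹ := by
              rw [← h7]; group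
          _ = _ := by group, mul_mem (mul_mem hg hy.2) (Subgroup.inv_mem _ hg)⟩) with h6 | h6
    · exact h6.ge.trans inf_le_left
    · exfalso
      have hb : a' * a⁻¹ ∈ normalizer ((H72.cj a K : Subgroup G) : Set G) := by
        rw [← cj_eq_iff, ← cj_mul, inv_mul_cancel_right, h2 a' ha' hK']
      have h7 := mem_centralizer_of_perfect hM.comp.perfect hb fun l hl => h6 ⟨by
        have h9 := mul_mem (h4 _ (mem_cj.1 hl)) (inv_mem (h3 _ (mem_cj.1 hl)))
        have h10 := hKM (mem_cj.1 hl) _ (mul_mem (conj_mem_of_mem_normalizer hb hl) (inv_mem hl))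
        refine (congrArg (· ∈ H21.commStab V T) ?_).mpr h9
        calc ⁅a' * a⁻¹, l⁆ = (a⁻¹ * l * a) * (a' * a⁻¹ * l * (a' * a⁻¹)⁻¹ * l⁻¹) *
              (a⁻¹ * l * a)⁻¹ := by rw [← h10, commutatorElement_def]; group
          _ = _ := by group, mul_mem (conj_mem_of_mem_normalizer hb hl) (Subgroup.inv_mem _ hl)⟩
      have h8 := hM.eq_one_of_cent (mul_mem ha' (inv_mem ha)) h7
      exact hne (mul_inv_eq_one.1 h8).symm
  have h6 : K ≤ H21.commStab V T := fun x hx => by
    have := mul_mem (h3 x hx) (inv_mem (h5 (conj_mem_cj hx)))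
    rwa [mul_inv_cancel_right] at this
  have h7 : (⨆ g : A, H72.cj (g : G) K) ≤ H21.commStab V T := iSup_le fun g => by
    by_cases h8 : H72.cj (g : G) K = K
    · rw [h8]; exact h6
    · rw [h2 g g.2 h8]; exact h5
  have h8 := (H21.le_commStab.1 h7).2
  rwa [commutator_comm, h.commutator_E] at h8

theorem false : False := by
  classical
  have hVc := h.hV.1
  have h2 : ∀ c ∈ A, H72.cj c K ≠ K → ∀ g ∈ A, H72.cj g K ≠ K → H72.cj g K = H72.cj c K :=
    fun c hc hcK g hg hgK => by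
      by_contra hne
      exact h.false_of_three hg hgK hc hcK hne
  have hp2 : p = 2 := by
    by_contra hne
    have h3 : 2 < p := lt_of_le_of_ne hp.out.two_le (Ne.symm hne)
    have h4 := h2 a ha hK _ (pow_mem ha 2) (h.cj_pow_ne ha hK (by norm_num) h3)
    rw [sq, cj_mul, cj_inj] at h4
    exact hK h4
  have := Fintype.ofFinite G
  set s := Finset.univ.filter fun c => c ∈ A ∧ H72.cj c K ≠ K with hs
  have hmem : ∀ c, c ∈ s ↔ c ∈ A ∧ H72.cj c K ≠ K := fun c => by simp [hs]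
  have h3 := two_mul_card_lt_relIndex (V := V) s (fun c => centralizer {c})
    (centralizer (A : Set G))
    (fun c hc => centralizer_le (Set.singleton_subset_iff.2 ((hmem c).1 hc).1))
    (fun c hc c' hc' hne => h.le_sup_of_two ((hmem c).1 hc).1 ((hmem c).1 hc).2 hp2
      (h2 c ((hmem c).1 hc).1 ((hmem c).1 hc).2) ((hmem c').1 hc').1 ((hmem c').1 hc').2 hne)
    (fun c hc => by
      obtain ⟨hc1, hc2⟩ := (hmem c).1 hc
      have h4 := H21.relIndex_ne_zero' (centralizer ({c} : Set G)) V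
      have h5 : (centralizer ({c} : Set G)).relIndex V ≠ 1 := fun h5 => by
        rw [relIndex_eq_one, ← H21.centralizer_zpowers, le_centralizer_iff, zpowers_le] at h5
        have : c ∈ A ⊓ centralizer (V : Set G) := ⟨hc1, h5⟩
        rw [h.faith, mem_bot] at this
        exact hc2 (this ▸ cj_one K)
      have h6 : (centralizer ({c} : Set G)).relIndex V ≠ 2 := fun h6 =>
        h.false_of_index_two hc1 hc2 h6 hp2
      omega)
  have h4 := H21.IsBestOffenderOn.card_le h.best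
  rw [← H21.card_inf_mul_relIndex (centralizer (A : Set G)) V, inf_comm, mul_comm (Nat.card A)] at h4
  have h5 := Nat.le_of_mul_le_mul_left h4 Nat.card_pos
  have h6 : Finset.univ.filter (· ∈ A) ⊆ s ∪ s.image (a⁻¹ * ·) := fun c hc => by
    have hc1 : c ∈ A := by simpa using hc
    rw [Finset.mem_union, hmem, Finset.mem_image]
    by_cases h7 : H72.cj c K = K
    · exact .inr ⟨a * c, (hmem _).2 ⟨mul_mem ha hc1, by rwa [cj_mul, h7]⟩, by group⟩
    · exact .inl ⟨hc1, h7⟩
  have h7 := (Finset.card_le_card h6).trans (Finset.card_union_le _ _)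
  have h8 := Finset.card_image_le (s := s) (f := (a⁻¹ * ·))
  rw [Nat.card_eq_fintype_card, Fintype.card_subtype] at h5
  omega

end diag

end PGV

theorem pgv_normalizes [Finite G] {p : ℕ} [hp : Fact p.Prime] {K : Subgroup G} (n : ℕ) :
    ∀ {V A : Subgroup G}, Nat.card V + Nat.card A = n → IsElementaryAbelian p V →
      IsElementaryAbelian p A → A ≤ normalizer (V : Set G) → K ≤ normalizer (V : Set G) →
      H44.Comp (A ⊔ K) K → IsBestOffenderOn p V A → ⁅V, K⁆ ≠ ⊥ → A ≤ normalizer (K : Set G) := by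
  induction n using Nat.strong_induction_on with
  | _ n ih =>
  intro V A hn hV hA AV KV hc hb nt
  by_cases hmin : ∀ W, W < V → A ≤ normalizer (W : Set G) → K ≤ normalizer (W : Set G) → ⁅W, K⁆ = ⊥
  · by_cases hf : A ⊓ centralizer (V : Set G) = ⊥
    · intro a ha
      by_contra hne
      exact PGV.false ⟨hV, hA, AV, KV, hc, hb, nt, hf, hmin⟩ ha (mt cj_eq_iff.1 hne)
    · obtain ⟨B, hB, h1, h2⟩ := H50.exists_compl_of_elem (U := A ⊓ centralizer (V : Set G)) hA
        inf_le_left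
      have hAc := hA.1
      have hlt : B < A := lt_of_le_of_ne hB fun h3 => hf (by
        rw [h3, inf_eq_left.2 inf_le_left] at h1; exact h1)
      have hcard : ∀ X ≤ B, Nat.card ↥((A ⊓ centralizer (V : Set G)) ⊔ X) =
          Nat.card ↥(A ⊓ centralizer (V : Set G)) * Nat.card X := fun X hX => by
        rw [← H21.card_sup_mul_card_inf (H21.le_normalizer_of_le_comm (hX.trans hB) inf_le_left),
          eq_bot_iff.2 ((inf_le_inf_left _ hX).trans h1.le), card_bot, mul_one]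
      have hcent : ∀ X : Subgroup G, V ⊓ centralizer (((A ⊓ centralizer (V : Set G)) ⊔ X :
          Subgroup G) : Set G) = V ⊓ centralizer (X : Set G) := fun X => by
        rw [H21.centralizer_sup, ← inf_assoc, inf_eq_left.2 (le_centralizer_iff.1 inf_le_right)]
      have h3 := ih _ (by have := H21.card_lt_of_lt hlt; omega) rfl hV
        (H21.isElementaryAbelian_of_le hA hB) (hB.trans AV) KV
        (hc.mono le_sup_right (sup_le_sup_right hB K))
        ⟨fun X hX => by
          have h4 := hb.1 _ (sup_le inf_le_left (hX.trans hB) :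
            (A ⊓ centralizer (V : Set G)) ⊔ X ≤ A)
          rw [hcard X hX, hcent] at h4
          conv_rhs at h4 => rw [← h2, hcard B le_rfl, hcent]
          rw [mul_assoc, mul_assoc] at h4
          exact Nat.le_of_mul_le_mul_left h4 Nat.card_pos,
          (commutator_mono hB hB).trans hb.2.1, fun a ha => hb.2.2 a (hB ha)⟩ nt
      rw [← h2]
      refine sup_le ?_ h3
      rcases hc.le_or_commutator_eq_bot_of_le_normalizer
        (U := centralizer (V : Set G) ⊓ (A ⊔ K)) inf_le_right (H21.le_normalizer_inf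
        (H21.le_normalizer_centralizer KV) (le_sup_right.trans le_normalizer)) with h4 | h4
      · exact absurd (H21.commutator_eq_bot_iff'.2 (h4.trans inf_le_left)) nt
      · exact H21.le_normalizer_of_le_centralizer (le_trans (le_inf inf_le_right
          (inf_le_left.trans le_sup_left)) (H21.commutator_eq_bot_iff'.1 h4))
  · push Not at hmin
    obtain ⟨W, hW, h1, h2, h3⟩ := hmin
    refine ih _ (by have := H21.card_lt_of_lt hW; omega) rfl
      (H21.isElementaryAbelian_of_le hV hW.le) hA h1 h2 hc ⟨fun X hX => ?_,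
        hb.2.1.trans (H21.centralizer_anti hW.le),
        fun a ha => H21.centralizer_anti hW.le (hb.2.2 a ha)⟩ h3
    have h4 := hb.1 X hX
    have h5 := H21.card_mul_card_le (W ⊓ centralizer (X : Set G)) (V ⊓ centralizer (A : Set G))
    have h6 : Nat.card ↥(W ⊓ centralizer (X : Set G) ⊔ V ⊓ centralizer (A : Set G)) ≤
        Nat.card ↥(V ⊓ centralizer (X : Set G)) := card_le_of_le (sup_le
      (inf_le_inf_right _ hW.le) (inf_le_inf_left _ (H21.centralizer_anti hX)))
    have h7 : Nat.card ↥((W ⊓ centralizer (X : Set G)) ⊓ (V ⊓ centralizer (A : Set G))) ≤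
        Nat.card ↥(W ⊓ centralizer (A : Set G)) := card_le_of_le (inf_le_inf inf_le_left inf_le_right)
    have h8 := h5.trans (Nat.mul_le_mul h6 h7)
    refine Nat.le_of_mul_le_mul_right ?_ (Nat.card_pos (α := ↥(V ⊓ centralizer (A : Set G))))
    calc _ = Nat.card X * (Nat.card ↥(W ⊓ centralizer (X : Set G)) *
          Nat.card ↥(V ⊓ centralizer (A : Set G))) := by ring
      _ ≤ Nat.card X * (Nat.card ↥(V ⊓ centralizer (X : Set G)) *
          Nat.card ↥(W ⊓ centralizer (A : Set G))) := Nat.mul_le_mul_left _ h8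
      _ = Nat.card X * Nat.card ↥(V ⊓ centralizer (X : Set G)) *
          Nat.card ↥(W ⊓ centralizer (A : Set G)) := by ring
      _ ≤ Nat.card A * Nat.card ↥(V ⊓ centralizer (A : Set G)) *
          Nat.card ↥(W ⊓ centralizer (A : Set G)) := Nat.mul_le_mul_right _ h4
      _ = _ := by ring

end Cfsg.Agent.H73
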