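/-
Counting involutions and `p`-elements in sharply triply transitive groups.
-/
import Cfsg.Agent.H26.Sharp3Even
import Cfsg.Agent.H28.Pgl2
import Cfsg.Agent.H81.SameOrder
import Cfsg.Agent.H81.Frob

set_option autoImplicit false
set_option linter.unusedSectionVars false

namespace Cfsg.Agent.H73.Pg

open MulAction Cfsg.Agent.H12 Cfsg.Agent.H26 Cfsg.Agent.H81

variable {G Ω : Type*} [Group G] [Finite G]

theorem card_split (P Q : G → Prop) :
    Nat.card {g : G // P g} = Nat.card {g : G // P g ∧ Q g} + Nat.card {g : G // P g ∧ ¬ Q g} := by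
  classical
  rw [← Nat.card_sum]
  refine (Nat.card_congr ((Equiv.sumCongr (Equiv.subtypeSubtypeEquivSubtypeInter P Q).symm
    (Equiv.subtypeSubtypeEquivSubtypeInter P fun g => ¬ Q g).symm).trans
    (Equiv.sumCompl fun x : {g : G // P g} => Q x.1))).symm

/-- elements of order `p` partitioned by a family of subgroups -/
theorem so_of_family [Finite Ω] {p q : ℕ} (hp : p ≠ 1) (U : Ω → Subgroup G)
    (hc : ∀ a, Nat.card (U a) = q) (h1 : ∀ a, ∀ u ∈ U a, u ≠ 1 → orderOf u = p)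
    (h2 : ∀ u : G, orderOf u = p → ∃ a, u ∈ U a)
    (h3 : ∀ a b, ∀ u ∈ U a, u ∈ U b → u ≠ 1 → a = b) : so G p = Nat.card Ω * (q - 1) := by
  classical
  have e : Nat.card (Σ a : Ω, {u : U a // u ≠ 1}) = so G p := by
    refine Nat.card_eq_of_bijective
      (fun x => ⟨x.2.1, h1 _ _ x.2.1.2 fun h => x.2.2 (Subtype.ext h)⟩) ⟨?_, ?_⟩
    · rintro ⟨a, ⟨u, hu⟩, hu1⟩ ⟨b, ⟨v, hv⟩, hv1⟩ h
      obtain rfl : u = v := congrArg Subtype.val h
      obtain rfl := h3 a b u hu hv fun h => hu1 (Subtype.ext h)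
      rfl
    · rintro ⟨u, hu⟩
      obtain ⟨a, ha⟩ := h2 u hu
      refine ⟨⟨a, ⟨u, ha⟩, fun h => hp ?_⟩, rfl⟩
      rw [← hu, show u = 1 from congrArg Subtype.val h, orderOf_one]
  haveI := Fintype.ofFinite Ω
  rw [← e, Nat.card_sigma, Finset.sum_congr rfl (g := fun _ => q - 1), Finset.sum_const,
    smul_eq_mul, Finset.card_univ, Nat.card_eq_fintype_card]
  intro a _
  haveI := Fintype.ofFinite (U a)
  rw [← hc a, Nat.card_eq_fintype_card, Nat.card_eq_fintype_card, Fintype.card_subtype_compl,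
    Fintype.card_subtype_eq]

/-- a subgroup acting freely by conjugation on the elements of order `n` -/
theorem dvd_so_of_free (U : Subgroup G) {n : ℕ}
    (h : ∀ u ∈ U, ∀ g : G, orderOf g = n → g * u = u * g → u = 1) : Nat.card U ∣ so G n := by
  let _ : MulAction U {g : G // orderOf g = n} :=
    { smul := fun u g => ⟨u * g * (u : G)⁻¹,
        ((MulAut.conj (u : G)).orderOf_eq g).trans g.2⟩
      one_smul := fun g => Subtype.ext (show ((1 : U) : G) * g * ((1 : U) : G)⁻¹ = g by simp)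
      mul_smul := fun u v g => Subtype.ext
        (show ((u * v : U) : G) * g * ((u * v : U) : G)⁻¹ = u * (v * g * (v : G)⁻¹) * (u : G)⁻¹ by
          simp [mul_assoc]) }
  have hf : ∀ g : {g : G // orderOf g = n}, stabilizer U g = ⊥ := fun g => by
    refine eq_bot_iff.2 fun u hu => Subtype.ext (h u u.2 g g.2 ?_)
    have h1 : (u : G) * g * (u : G)⁻¹ = g := congrArg Subtype.val hu
    rw [mul_inv_eq_iff_eq_mul] at h1
    exact h1.symm
  rw [so, Nat.card_congr (selfEquivOrbitsQuotientProd hf), Nat.card_prod]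
  exact dvd_mul_left _ _

variable [MulAction G Ω] [Finite Ω]

theorem card_sw (hT : ZT G Ω) {a b : Ω} (hab : a ≠ b) :
    Nat.card {g : G // g • g • a = a ∧ ¬ g • a = a} =
      Nat.card (zker G a) * Nat.card (stabilizer G a ⊓ stabilizer G b : Subgroup G) := by
  obtain ⟨s, hsa, hsb⟩ := hT.two hab hab.symm
  have key : ∀ (u : zker G a) (h : (stabilizer G a ⊓ stabilizer G b : Subgroup G)),
      ((u : G) * (s * h) * (u : G)⁻¹) • a = (u : G) • b := fun u h => by
    rw [mul_smul, hT.ker_fix ((zker G a).inv_mem u.2), mul_smul, mul_smul, h.2.1, hsa]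
  rw [← Nat.card_prod]
  refine (Nat.card_eq_of_bijective (fun x => ⟨x.1 * (s * x.2) * (x.1 : G)⁻¹, by
    rw [key, mul_smul, inv_smul_smul, mul_smul, mul_smul, x.2.2.2, hsb, hT.ker_fix x.1.2], by
    rw [key]; exact smul_ne_of_fix (hT.ker_fix x.1.2) hab.symm⟩) ⟨?_, ?_⟩).symm
  · rintro ⟨u, h⟩ ⟨v, k⟩ e
    have e1 : (u : G) * (s * h) * (u : G)⁻¹ = v * (s * k) * (v : G)⁻¹ := congrArg Subtype.val e
    have e2 := key u h
    rw [e1, key] at e2
    obtain rfl : u = v := Subtype.ext (hT.ker_unique hab.symm u.2 v.2 e2.symm)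
    obtain rfl : h = k := Subtype.ext (by simpa using e1)
    rfl
  · rintro ⟨g, h1, h2⟩
    obtain ⟨u, hu, e⟩ := hT.ker_trans hab.symm h2
    refine ⟨(⟨u, hu⟩, ⟨s⁻¹ * (u⁻¹ * g * u), ?_, ?_⟩), Subtype.ext (by simp [mul_assoc])⟩
    · show _ • a = a
      rw [mul_smul, mul_smul, hT.ker_fix hu, mul_smul, ← e, inv_smul_smul, inv_smul_eq_iff, hsa]
    · show _ • b = b
      rw [mul_smul, mul_smul, e, mul_smul, h1, hT.ker_fix ((zker G a).inv_mem hu), inv_smul_eq_iff,
        hsb]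

theorem card_inv_fix (hT : ZT G Ω) {a b c : Ω} (hab : a ≠ b) (hca : c ≠ a) (hcb : c ≠ b)
    (ho : Odd (Nat.card (zker G a)))
    (he : 2 ∣ Nat.card (stabilizer G a ⊓ stabilizer G b : Subgroup G)) :
    Nat.card {g : G // orderOf g = 2 ∧ g • a = a} = Nat.card (zker G a) := by
  obtain ⟨⟨z, hz⟩, hz2⟩ := exists_prime_orderOf_dvd_card' 2 he
  rw [← Subgroup.orderOf_coe] at hz2
  have hz2' : orderOf z = 2 := hz2
  have hz1 : z ≠ 1 := fun h => by rw [h, orderOf_one] at hz2'; omega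
  have hzz : z * z = 1 := by rw [← sq, ← hz2', pow_orderOf_eq_one]
  refine (Nat.card_eq_of_bijective (fun u => ⟨u * z * (u : G)⁻¹,
    ((MulAut.conj (u : G)).orderOf_eq z).trans hz2', by
    rw [mul_smul, hT.ker_fix ((zker G a).inv_mem u.2), mul_smul, hz.1, hT.ker_fix u.2]⟩)
    ⟨?_, ?_⟩).symm
  · intro u v e
    have e1 : (u : G) * z * (u : G)⁻¹ = v * z * (v : G)⁻¹ := congrArg Subtype.val e
    have := hT.ker_eq_one_of_commute hab.symm
      ((zker G a).mul_mem ((zker G a).inv_mem v.2) u.2) hz1 hz.2 (by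
        rw [mul_inv_eq_iff_eq_mul] at e1
        rw [mul_assoc, e1]; simp [mul_assoc])
    exact Subtype.ext (inv_mul_eq_one.1 this).symm
  · rintro ⟨g, h1, h2⟩
    rcases hT.mem_ker_or h2 with h | ⟨d, hd, h⟩
    · have := Subgroup.orderOf_dvd_natCard _ h
      rw [h1] at this
      exact absurd (even_iff_two_dvd.2 this) (Nat.not_even_iff_odd.2 ho)
    obtain ⟨u, hu, e⟩ := hT.ker_trans hab.symm hd
    have hgg : g * g = 1 := by rw [← sq, ← h1, pow_orderOf_eq_one]
    have k1 : (u⁻¹ * g * u) • a = a := by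
      rw [mul_smul, hT.ker_fix hu, mul_smul, h2, hT.ker_fix ((zker G a).inv_mem hu)]
    have k2 : (u⁻¹ * g * u) • b = b := by rw [mul_smul, e, mul_smul, h, ← e, inv_smul_smul]
    have k3 : u⁻¹ * g * u * (u⁻¹ * g * u) = 1 :=
      calc u⁻¹ * g * u * (u⁻¹ * g * u) = u⁻¹ * (g * g) * u := by group
        _ = 1 := by rw [hgg]; simp
    rcases invol_unique hT hab hca hcb hz hz1 hzz ⟨k1, k2⟩ k3 with h3 | h3
    · have : g = 1 := by rw [mul_assoc, inv_mul_eq_one] at h3; simpa using h3.symm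
      rw [this, orderOf_one] at h1; omega
    · exact ⟨⟨u, hu⟩, Subtype.ext (by simp [← h3, mul_assoc])⟩

theorem inv_sub {a : Ω} {g : G} (h : orderOf g = 2 ∧ ¬ g • a = a) :
    g • g • a = a ∧ ¬ g • a = a :=
  ⟨by rw [← mul_smul, ← sq, ← h.1, pow_orderOf_eq_one, one_smul], h.2⟩

/-- the number of involutions when all elements swapping two points are involutions -/
theorem so_two_of_inv (hT : ZT G Ω) {a b c : Ω} (hab : a ≠ b) (hca : c ≠ a) (hcb : c ≠ b)
    (ho : Odd (Nat.card (zker G a)))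
    (he : 2 ∣ Nat.card (stabilizer G a ⊓ stabilizer G b : Subgroup G))
    (h : ∀ g : G, g • g • a = a → g • a ≠ a → g * g = 1) :
    so G 2 = Nat.card (zker G a) +
      Nat.card (zker G a) * Nat.card (stabilizer G a ⊓ stabilizer G b : Subgroup G) := by
  rw [so, card_split _ (fun g : G => g • a = a), card_inv_fix hT hab hca hcb ho he,
    ← card_sw hT hab]
  congr 1
  refine Nat.card_congr (Equiv.subtypeEquivRight fun g => ⟨inv_sub, fun hg => ⟨?_, hg.2⟩⟩)
  refine orderOf_eq_prime (by rw [sq, h g hg.1 hg.2]) ?_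
  rintro rfl
  exact hg.2 (one_smul _ _)

theorem inv_of_so_two (hT : ZT G Ω) {a b c : Ω} (hab : a ≠ b) (hca : c ≠ a) (hcb : c ≠ b)
    (ho : Odd (Nat.card (zker G a)))
    (he : 2 ∣ Nat.card (stabilizer G a ⊓ stabilizer G b : Subgroup G))
    (h : so G 2 = Nat.card (zker G a) +
      Nat.card (zker G a) * Nat.card (stabilizer G a ⊓ stabilizer G b : Subgroup G))
    {g : G} (h1 : g • g • a = a) (h2 : g • a ≠ a) : g * g = 1 := by
  rw [so, card_split _ (fun g : G => g • a = a), card_inv_fix hT hab hca hcb ho he,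
    ← card_sw hT hab, Nat.add_left_cancel_iff] at h
  let f : {g : G // orderOf g = 2 ∧ ¬ g • a = a} → {g : G // g • g • a = a ∧ ¬ g • a = a} :=
    fun x => ⟨x.1, inv_sub x.2⟩
  have hf := (Nat.bijective_iff_injective_and_card f).2
    ⟨fun x y e => Subtype.ext (congrArg Subtype.val e : (f x).1 = (f y).1), h⟩
  obtain ⟨⟨x, hx⟩, e⟩ := hf.2 ⟨g, h1, h2⟩
  obtain rfl : x = g := congrArg Subtype.val e
  rw [← sq, ← hx.1, pow_orderOf_eq_one]

theorem card_zt (hT : ZT G Ω) {a b : Ω} (hab : a ≠ b) :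
    Nat.card G = Nat.card Ω * (Nat.card (zker G a) *
      Nat.card (stabilizer G a ⊓ stabilizer G b : Subgroup G)) := by
  haveI : IsPretransitive G Ω := ⟨hT.trans⟩
  rw [← (stabilizer G a).index_mul_card, index_stabilizer_of_transitive]
  congr 1
  rw [← Nat.card_prod]
  refine (Nat.card_eq_of_bijective (fun x => ⟨x.1 * x.2,
    Subgroup.mul_mem _ (hT.ker_le a x.1.2) x.2.2.1⟩) ⟨?_, ?_⟩).symm
  · rintro ⟨u, h⟩ ⟨v, k⟩ e
    have e1 : (u : G) * h = v * k := congrArg Subtype.val e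
    have e2 : (u : G) • b = (v : G) • b := by
      rw [← (show (h : G) • b = b from h.2.2), ← mul_smul, e1, mul_smul,
        (show (k : G) • b = b from k.2.2), (show (h : G) • b = b from h.2.2)]
    obtain rfl : u = v := Subtype.ext (hT.ker_unique hab.symm u.2 v.2 e2)
    obtain rfl : h = k := Subtype.ext (mul_left_cancel e1)
    rfl
  · rintro ⟨g, hg⟩
    obtain ⟨u, hu, h, h1, h2, rfl⟩ := hT.exists_ker_mul hab.symm hg
    exact ⟨(⟨u, hu⟩, ⟨h, h1, h2⟩), rfl⟩

end Cfsg.Agent.H73.Pg
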