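/-
The numbers of elements of each order in `PGL₂(q)`, and the groups with the same numbers.
-/
import Cfsg.Agent.H73.PgA

set_option autoImplicit false
set_option linter.unusedSectionVars false

namespace Cfsg.Agent.H73.Pg

open MulAction Cfsg.Agent.H12 Cfsg.Agent.H26 Cfsg.Agent.H81

section Model

open OnePoint H28
open scoped MatrixGroups

variable {F : Type*} [Field F] [DecidableEq F]

theorem zt_pgl : ZT PGL(2, F) (OnePoint F) where
  faithful := fun g h => eq_one_of_frame (h _) (h _) (h _)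
  two := fun h h' => by
    obtain ⟨s, h1, h2⟩ := exists_frame_two h
    obtain ⟨t, h3, h4⟩ := exists_frame_two h'
    exact ⟨t * s⁻¹, by rw [mul_smul, ← h1, inv_smul_smul, h3],
      by rw [mul_smul, ← h2, inv_smul_smul, h4]⟩
  three := fun g _ _ _ h1 h2 h3 => pgl_three g _ _ _ h1 h3 h2

theorem swap_inv (g : PGL(2, F)) (h1 : g • g • (∞ : OnePoint F) = ∞)
    (h2 : g • (∞ : OnePoint F) ≠ ∞) : g * g = 1 := by
  obtain ⟨t, k1, k2⟩ := exists_frame_two h2.symm
  have e1 : (t⁻¹ * g * t) • (∞ : OnePoint F) = ((0 : F) : OnePoint F) := by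
    rw [mul_smul, k1, mul_smul, ← k2, inv_smul_smul]
  have e2 : (t⁻¹ * g * t) • ((0 : F) : OnePoint F) = ∞ := by
    rw [mul_smul, k2, mul_smul, h1, inv_smul_eq_iff, k1]
  have e4 : t⁻¹ * g * t * (t⁻¹ * g * t) = 1 := by
    generalize t⁻¹ * g * t = h at e1 e2
    cases e3 : h • ((1 : F) : OnePoint F) with
    | infty => simpa using MulAction.injective h (e3.trans e2.symm)
    | coe c =>
      have hc : c ≠ 0 := by
        rintro rfl
        simpa using MulAction.injective h (e3.trans e1.symm)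
      obtain rfl : h = swp (Units.mk0 c hc) := pgl_ext (by rw [e1, swp_smul_infty])
        (by rw [e2, swp_smul_zero]) (by rw [e3, swp_smul_coe _ one_ne_zero]; simp)
      refine eq_one_of_frame (by rw [mul_smul, e1, e2]) (by rw [mul_smul, e2, e1]) ?_
      rw [mul_smul, e3, swp_smul_coe _ hc]
      simp [hc]
  calc g * g = t * (t⁻¹ * g * t * (t⁻¹ * g * t)) * t⁻¹ := by group
    _ = 1 := by rw [e4]; simp

theorem card_tor [Finite F] : Nat.card (stabilizer PGL(2, F) (∞ : OnePoint F) ⊓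
    stabilizer PGL(2, F) ((0 : F) : OnePoint F) : Subgroup PGL(2, F)) = Nat.card F - 1 := by
  rw [← Nat.card_units]
  refine (Nat.card_eq_of_bijective (fun a => ⟨aff a 0, aff_smul_infty _ _, by
    show _ • _ = _
    rw [aff_smul_coe]; simp⟩) ⟨fun a b e => (aff_inj (congrArg Subtype.val e)).1, ?_⟩).symm
  rintro ⟨g, h1, h2⟩
  obtain ⟨a, b, rfl⟩ := exists_aff h1
  have h3 : aff a b • ((0 : F) : OnePoint F) = ((0 : F) : OnePoint F) := h2
  rw [aff_smul_coe, coe_eq_coe] at h3
  obtain rfl : b = 0 := by simpa using h3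
  exact ⟨a, rfl⟩

theorem model [Finite F] {p q : ℕ} [Fact p.Prime] [CharP F p] (hq : Nat.card F = q) (ho : Odd q) :
    Nat.card PGL(2, F) = q * (q ^ 2 - 1) ∧ so PGL(2, F) 2 = q ^ 2 ∧
      ∀ n, so PGL(2, F) n = 1 ∨ so PGL(2, F) n = q ^ 2 - 1 ∨ q ∣ so PGL(2, F) n := by
  have hp : p.Prime := Fact.out
  have hT := zt_pgl (F := F)
  haveI : Finite (OnePoint F) := inferInstanceAs (Finite (Option F))
  haveI : Nontrivial (OnePoint F) := inferInstanceAs (Nontrivial (Option F))
  haveI := hT.finite_group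
  have hΩ : Nat.card (OnePoint F) = q + 1 := hq ▸ card_of_coords (Equiv.refl _)
  have h0 : (∞ : OnePoint F) ≠ ((0 : F) : OnePoint F) := infty_ne_coe _
  have hk : ∀ a : OnePoint F, Nat.card (zker PGL(2, F) a) = q := fun a => by
    obtain ⟨b, hb⟩ := exists_ne a
    have := hT.card_ker hb
    omega
  have hm : ∀ a : OnePoint F, ∀ u ∈ zker PGL(2, F) a, u ^ p = 1 := fun a u hu => by
    by_contra h
    obtain ⟨y, h1, h2⟩ := pgl_ss p u a (hT.ker_fix hu) h
    rw [hT.ker_eq_one hu h1 h2, one_pow] at h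
    exact h rfl
  have hq1 : 1 < q := hq ▸ Finite.one_lt_card
  obtain ⟨r, rfl⟩ : ∃ r, q = r + 1 := ⟨q - 1, by omega⟩
  have e : (r + 1) ^ 2 - 1 = (r + 1 + 1) * r := by
    rw [Nat.sub_eq_of_eq_add]; ring
  have hpq : p ∣ r + 1 := by
    haveI := Fintype.ofFinite F
    obtain ⟨n, -, hn⟩ := FiniteField.card F p
    rw [← hq, Nat.card_eq_fintype_card, hn]
    exact dvd_pow_self p n.ne_zero
  refine ⟨?_, ?_, fun n => ?_⟩
  · rw [card_zt hT h0, hΩ, hk, card_tor, hq, e, Nat.add_sub_cancel]; ring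
  · rw [so_two_of_inv hT h0 (coe_ne_infty (1 : F)) (by simp) (by rw [hk]; exact ho)
      (by rw [card_tor, hq, Nat.add_sub_cancel]; obtain ⟨k, hk⟩ := ho; exact ⟨k, by omega⟩)
      swap_inv, hk, card_tor, hq, Nat.add_sub_cancel]
    ring
  by_cases h1 : n = 1
  · exact Or.inl (by rw [h1, so_one])
  by_cases h2 : n = p
  · refine Or.inr (Or.inl ?_)
    rw [h2, so_of_family hp.ne_one (zker PGL(2, F)) hk
      (fun a u hu h => orderOf_eq_prime (hm a u hu) h) (fun u hu => ?_)
      (fun a b u ha hb h => hT.eq_of_ker_fix hb h (hT.ker_fix ha)), hΩ, e, Nat.add_sub_cancel]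
    have h3 : IsPGroup p (Subgroup.zpowers u) := IsPGroup.of_card (n := 1)
      (by rw [Nat.card_zpowers, hu, pow_one])
    obtain ⟨a, ha⟩ := h3.nonempty_fixed_point_of_prime_not_dvd_card (OnePoint F) (by
      rw [hΩ]; exact fun h => hp.ne_one (Nat.dvd_one.1 ((Nat.dvd_add_right hpq).1 h)))
    have h4 : u • a = a := ha ⟨u, Subgroup.mem_zpowers u⟩
    refine ⟨a, hT.mem_ker.2 ⟨h4, ?_⟩⟩
    by_contra h
    push Not at h
    obtain ⟨h5, c, h6, h7⟩ := h
    exact h5 (pgl_uni p u c a (by rw [← hu, pow_orderOf_eq_one]) h7 h6 h4)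
  refine Or.inr (Or.inr ?_)
  rw [← hk ∞]
  refine dvd_so_of_free _ fun u hu g hg hc => ?_
  by_contra h
  have h3 := orderOf_dvd_of_pow_eq_one (hm _ g (hT.mem_ker_of_commute hu h hc))
  rw [hg] at h3
  exact ((Nat.dvd_prime hp).1 h3).elim h1 h2

end Model

variable {G : Type*} [Group G] [Finite G]

theorem card_eq_sum_so (P : ℕ → Prop) [DecidablePred P] :
    Nat.card {x : G // P (orderOf x)} = ∑ n ∈ (Nat.card G).divisors.filter P, so G n := by
  classical
  haveI := Fintype.ofFinite G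
  rw [Nat.card_eq_fintype_card, Fintype.card_subtype,
    Finset.card_eq_sum_card_fiberwise (f := fun x : G => orderOf x)
      (t := (Nat.card G).divisors.filter P)]
  · refine Finset.sum_congr rfl fun n hn => ?_
    rw [so, Nat.card_eq_fintype_card, Fintype.card_subtype, Finset.filter_filter]
    congr 1
    refine Finset.filter_congr fun x _ => ⟨fun h => h.2, fun h => ⟨?_, h⟩⟩
    rw [h]; exact (Finset.mem_filter.1 hn).2
  · intro x hx
    simp only [Finset.coe_filter, Finset.mem_univ, true_and, Set.mem_ofPred_eq] at hx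
    simp only [Finset.coe_filter, Set.mem_ofPred_eq]
    exact ⟨Nat.mem_divisors.2 ⟨orderOf_dvd_natCard x, Nat.card_pos.ne'⟩, hx⟩

theorem dvd_sum_so {n : ℕ} (hn : n ∣ Nat.card G) :
    n ∣ ∑ k ∈ (Nat.card G).divisors.filter (· ∣ n), so G k := by
  rw [← card_eq_sum_so (G := G) (· ∣ n)]
  simp only [orderOf_dvd_iff_pow_eq_one]
  exact dvd_card_pow_eq_one hn

theorem sum_so : ∑ k ∈ (Nat.card G).divisors, so G k = Nat.card G := by
  have := card_eq_sum_so (G := G) (fun _ => True)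
  rw [Finset.filter_true] at this
  rw [← this]
  exact Nat.card_congr (Equiv.subtypeUnivEquiv fun _ => trivial)

/-- if the elements whose order is not prime to `a` are counted by `k0 * N` up to multiples of `a`,
then they are counted exactly -/
theorem nse_gen {a v N k0 : ℕ} (hc : Nat.card G = a * v) (hcop : a.Coprime v) (κ w : ℕ → ℕ)
    (hf : ∀ n, ¬ n.Coprime a → so G n = κ n * N + a * w n)
    (hs : ∑ n ∈ (Nat.card G).divisors.filter (fun n => ¬ n.Coprime a), κ n = k0)
    (hv : v ∣ k0 * N) (x : G) (hx : ¬ (orderOf x).Coprime a) : κ (orderOf x) ≠ 0 := by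
  set D := (Nat.card G).divisors
  set T := D.filter (fun n => ¬ n.Coprime a)
  have h1 : D.filter (fun n => ¬ ¬ n.Coprime a) = D.filter (· ∣ v) := by
    refine Finset.filter_congr fun n hn => ?_
    rw [not_not]
    exact ⟨fun h => h.dvd_of_dvd_mul_left (hc ▸ Nat.dvd_of_mem_divisors hn),
      fun h => (hcop.symm.coprime_dvd_left h)⟩
  have h2 := Finset.sum_filter_add_sum_filter_not D (fun n => ¬ n.Coprime a) (so G)
  rw [h1, sum_so] at h2
  have h3 := dvd_sum_so (G := G) (n := v) (hc ▸ dvd_mul_left v a)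
  have h4 : ∑ n ∈ T, so G n = k0 * N + a * ∑ n ∈ T, w n := by
    rw [← hs, Finset.sum_mul, Finset.mul_sum, ← Finset.sum_add_distrib]
    exact Finset.sum_congr rfl fun n hn => hf n (Finset.mem_filter.1 hn).2
  have h5 : v ∣ ∑ n ∈ T, w n := by
    refine hcop.symm.dvd_of_dvd_mul_left ((Nat.dvd_add_right hv).1 ?_)
    rw [← h4]
    refine (Nat.dvd_add_left h3).1 ?_
    rw [h2, hc]; exact dvd_mul_left v a
  have h6 : 0 < ∑ k ∈ D.filter (· ∣ v), so G k := by
    refine lt_of_lt_of_le (by rw [so_one (G := G)]; exact one_pos)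
      (Finset.single_le_sum (f := so G) (fun _ _ => Nat.zero_le _) (a := 1) ?_)
    exact Finset.mem_filter.2 ⟨Nat.one_mem_divisors.2 Nat.card_pos.ne', one_dvd _⟩
  have h7 : ∑ n ∈ T, w n = 0 := by
    refine Nat.eq_zero_of_dvd_of_lt h5 (Nat.lt_of_mul_lt_mul_left (a := a) ?_)
    rw [← hc, ← h2, h4]
    omega
  have hm : orderOf x ∈ T := Finset.mem_filter.2
    ⟨Nat.mem_divisors.2 ⟨orderOf_dvd_natCard x, Nat.card_pos.ne'⟩, hx⟩
  intro h0
  have h8 := hf _ hx
  rw [h0, (Finset.sum_eq_zero_iff.1 h7) _ hm] at h8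
  exact so_ne_zero_iff.2 ⟨x, rfl⟩ (by simpa using h8)

theorem count {p q m : ℕ} (hp : p.Prime) (hq : 1 < q) (ho : Odd q) (hpq : p ∣ q)
    (hm : q ^ 2 = m + 1) (hG : Nat.card G = q * m)
    (h1 : ∀ n, so G n = 1 ∨ so G n = m ∨ q ∣ so G n) (h2 : ∃ n, so G n = q ^ 2) :
    so G 2 = q ^ 2 ∧ so G p = m ∧ ∀ x : G, ¬ (orderOf x).Coprime q → orderOf x = p := by
  classical
  have hm3 : 3 ≤ m := by nlinarith
  have hodd : ∀ n, Odd (so G n) → n = 1 ∨ n = 2 := fun n hn => by
    rcases Nat.lt_or_ge 2 n with h | h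
    · exact absurd (even_iff_two_dvd.2 (two_dvd_so h)) (Nat.not_even_iff_odd.2 hn)
    · have : n ≠ 0 := by
        rintro rfl
        obtain ⟨g, hg⟩ := so_ne_zero_iff.1 hn.pos.ne'
        exact (orderOf_pos g).ne' hg
      omega
  have h3 : so G 2 = q ^ 2 := by
    obtain ⟨n, hn⟩ := h2
    rcases hodd n (hn ▸ ho.pow) with rfl | rfl
    · rw [so_one] at hn; omega
    · exact hn
  have h4 : ∀ n, so G n = 1 → n = 1 := fun n hn => by
    rcases hodd n (hn ▸ odd_one) with rfl | rfl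
    · rfl
    · omega
  let κ : ℕ → ℕ := fun n => if so G n = m then 1 else 0
  let w : ℕ → ℕ := fun n => if so G n = m then 0 else so G n / q
  have h5 : ∀ n, n ≠ 1 → so G n = κ n * m + q * w n := fun n hn => by
    by_cases h : so G n = m
    · simp [κ, w, h]
    · simp only [κ, w, h, if_false, zero_mul, zero_add]
      exact (Nat.mul_div_cancel' (((h1 n).resolve_left fun h => hn (h4 n h)).resolve_left h)).symm
  have hpG : p ∣ Nat.card G := hG ▸ hpq.mul_right m
  have h6 : so G p = m := by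
    refine (((h1 p).resolve_left fun h => hp.ne_one (h4 p h)).resolve_right fun h => ?_)
    have := dvd_so_add (G := G) (m := 1) hp hpG (fun h => hp.ne_one (Nat.dvd_one.1 h))
    rw [so_one, mul_one] at this
    exact hp.ne_one (Nat.dvd_one.1 ((Nat.dvd_add_left (hpq.trans h)).1 this))
  set D := (Nat.card G).divisors.erase 1 with hD
  have h7 : Nat.card G = 1 + ((∑ n ∈ D, κ n) * m + q * ∑ n ∈ D, w n) := by
    rw [← sum_so, ← Finset.add_sum_erase _ _ (Nat.one_mem_divisors.2 Nat.card_pos.ne'), so_one,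
      Finset.sum_mul, Finset.mul_sum, ← Finset.sum_add_distrib]
    congr 1
    exact Finset.sum_congr rfl fun n hn => h5 n (Finset.mem_erase.1 hn).1
  have h8 : ∑ n ∈ D, κ n ≤ 1 := by
    generalize ∑ n ∈ D, κ n = J at h7
    generalize ∑ n ∈ D, w n = W at h7
    rw [hG] at h7
    by_contra h
    obtain ⟨j, rfl⟩ : ∃ j, J = j + 1 := ⟨J - 1, by omega⟩
    have k1 : j + 1 < q := Nat.lt_of_mul_lt_mul_right (a := m) (by omega)
    have k2 : q ∣ j := by
      refine (Nat.dvd_add_right (dvd_mul_right q m)).1 ⟨(j + 1) * q + W, ?_⟩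
      have : q * ((j + 1) * q + W) = (j + 1) * q ^ 2 + q * W := by ring
      rw [this, hm, h7]; ring
    have := Nat.le_of_dvd (by omega) k2
    omega
  have hcop : q.Coprime m := by
    have : (q ^ 2).Coprime m := by rw [hm]; simp
    exact this.coprime_dvd_left (dvd_pow_self q two_ne_zero)
  refine ⟨h3, h6, fun x hx => ?_⟩
  have h9 := nse_gen hG hcop κ w (fun n hn => h5 n (by rintro rfl; simp at hn)) rfl
    (dvd_mul_left m _) x hx
  by_contra hne
  have hx1 : orderOf x ≠ 1 := by intro h; simp [h] at hx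
  have k1 : ({p, orderOf x} : Finset ℕ) ⊆ D := by
    intro n hn
    rcases Finset.mem_insert.1 hn with rfl | hn
    · exact Finset.mem_erase.2 ⟨hp.ne_one, Nat.mem_divisors.2 ⟨hpG, Nat.card_pos.ne'⟩⟩
    · rw [Finset.mem_singleton.1 hn]
      exact Finset.mem_erase.2
        ⟨hx1, Nat.mem_divisors.2 ⟨orderOf_dvd_natCard x, Nat.card_pos.ne'⟩⟩
  have k2 := Finset.sum_le_sum_of_subset (f := κ) k1
  rw [Finset.sum_pair (Ne.symm hne)] at k2
  have k3 : κ p = 1 := if_pos h6
  omega

end Cfsg.Agent.H73.Pg
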