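/-
A group of order `q(q² - 1)` with `q²` involutions and `q² - 1` elements of order divisible by `p`,
all of order `p`, is `PGL₂(q)`.
-/
import Cfsg.Agent.H73.PgB

set_option autoImplicit false
set_option linter.unusedSectionVars false

namespace Cfsg.Agent.H73.Pg

open MulAction Subgroup Cfsg.Agent.H12 Cfsg.Agent.H26 Cfsg.Agent.H81
open scoped MatrixGroups

variable {G : Type*} [Group G] [Finite G]

theorem all_conj {x y : G} {n : ℕ} (hx : orderOf x = n) (h : (centralizer {x}).index = so G n)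
    (hy : orderOf y = n) : ∃ g : G, g * x * g⁻¹ = y := by
  have h0 : (stabilizer (ConjAct G) x).index = (centralizer {x}).index := by
    refine Nat.eq_of_mul_eq_mul_right (m := Nat.card (centralizer {x} : Subgroup G)) Nat.card_pos ?_
    rw [index_mul_card, nat_card_centralizer_nat_card_stabilizer, index_mul_card]
    rfl
  rw [← h0, index_stabilizer] at h
  have h1 : orbit (ConjAct G) x = {g : G | orderOf g = n} := by
    refine Set.eq_of_subset_of_ncard_le ?_ (h ▸ (Nat.card_coe_set_eq _).symm.le)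
    rintro _ ⟨g, rfl⟩
    exact ((MulAut.conj (ConjAct.ofConjAct g)).orderOf_eq x).trans hx
  obtain ⟨g, hg⟩ : y ∈ orbit (ConjAct G) x := h1 ▸ hy
  exact ⟨ConjAct.ofConjAct g, hg⟩

section

variable {p : ℕ} [hp : Fact p.Prime] (h4 : ∀ x : G, p ∣ orderOf x → orderOf x = p)
include h4

theorem pow_of_comm {x y : G} (hx : orderOf x = p) (h : Commute x y) : y ^ p = 1 := by
  by_cases h1 : p ∣ orderOf y
  · rw [← h4 y h1, pow_orderOf_eq_one]
  have h2 := h.orderOf_mul_eq_mul_orderOf_of_coprime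
    (by rw [hx]; exact (Nat.Prime.coprime_iff_not_dvd hp.out).2 h1)
  rw [hx, h4 _ (h2 ▸ dvd_mul_right _ _)] at h2
  rw [orderOf_eq_one_iff.1 ((Nat.mul_eq_left hp.out.ne_zero).1 h2.symm), one_pow]

theorem order_syl (P : Sylow p G) {x : G} (hx : x ∈ P) (h1 : x ≠ 1) : orderOf x = p := by
  obtain ⟨k, hk⟩ := IsPGroup.iff_orderOf.1 P.isPGroup' ⟨x, hx⟩
  rw [← Subgroup.orderOf_coe] at hk
  refine h4 x (hk ▸ dvd_pow_self p ?_)
  rintro rfl
  exact h1 (orderOf_eq_one_iff.1 hk)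

theorem cent_eq (P : Sylow p G) {x : G} (hx : x ∈ P) (h1 : x ≠ 1)
    (hc : ∀ y ∈ P, x * y = y * x) : centralizer {x} = P :=
  P.is_maximal' (fun y => ⟨1, Subtype.ext (by
    rw [pow_one]
    exact pow_of_comm h4 (order_syl h4 P hx h1) (mem_centralizer_singleton_iff.1 y.2).symm)⟩)
    fun y hy => mem_centralizer_singleton_iff.2 (hc y hy).symm

theorem syl_comm (hp2 : p ≠ 2) (P : Sylow p G) (hn : (P : Subgroup G) ≠ ⊥)
    (hi : (P : Subgroup G).index = so G p) : ∀ x ∈ P, ∀ y ∈ P, x * y = y * x := by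
  haveI := (nontrivial_iff_ne_bot _).2 hn
  haveI := P.isPGroup'.center_nontrivial
  obtain ⟨⟨⟨x, hx⟩, hz⟩, h1⟩ := exists_ne (1 : center (P : Subgroup G))
  have h2 : x ≠ 1 := fun h => h1 (Subtype.ext (Subtype.ext h))
  have ho := order_syl h4 P hx h2
  have h3 := cent_eq h4 P hx h2 fun y hy =>
    (congrArg Subtype.val (mem_center_iff.1 hz ⟨y, hy⟩)).symm
  obtain ⟨g, hg⟩ := all_conj ho (h3 ▸ hi) ((orderOf_inv x).trans ho)
  have hodd : Odd p := hp.out.odd_of_ne_two hp2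
  have hnc : ¬ Commute g x := fun h => by
    rw [h.eq, mul_inv_cancel_right, eq_inv_iff_mul_eq_one, ← sq] at hg
    exact hp2 ((Nat.prime_dvd_prime_iff_eq hp.out Nat.prime_two).1
      (ho ▸ orderOf_dvd_of_pow_eq_one hg))
  have hc : Commute (g ^ 2) x := by
    have : g ^ 2 * x * (g ^ 2)⁻¹ = x :=
      calc g ^ 2 * x * (g ^ 2)⁻¹ = g * (g * x * g⁻¹) * g⁻¹ := by rw [sq]; group
        _ = g * x⁻¹ * g⁻¹ := by rw [hg]
        _ = (g * x * g⁻¹)⁻¹ := by group
        _ = x := by rw [hg, inv_inv]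
    exact mul_inv_eq_iff_eq_mul.1 this
  have hgp : g ^ p ≠ 1 := fun h => by
    obtain ⟨k, hk⟩ := hodd
    refine hnc ?_
    have : g = (g ^ 2) ^ (k + 1) := by
      rw [← pow_mul, show 2 * (k + 1) = p + 1 by omega, pow_succ, h, one_mul]
    rw [this]
    exact hc.pow_left _
  have hgg : g ^ 2 = 1 := by
    have h5 := pow_of_comm h4 ho hc.symm
    rw [← pow_mul, ← orderOf_dvd_iff_pow_eq_one] at h5
    refine orderOf_dvd_iff_pow_eq_one.1 (Nat.Coprime.dvd_of_dvd_mul_right ?_ h5)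
    refine ((Nat.Prime.coprime_iff_not_dvd hp.out).2 fun h => hgp ?_).symm
    rw [← h4 g h, pow_orderOf_eq_one]
  have hN : ∀ y : (P : Subgroup G), MulAut.conj g (y : G) ∈ (P : Subgroup G) := fun y => by
    have h5 : Commute (y : G) x := mem_centralizer_singleton_iff.1 (h3.ge y.2)
    have h6 := h5.map (MulAut.conj g)
    rw [show MulAut.conj g x = x⁻¹ from hg] at h6
    exact h3.le (mem_centralizer_singleton_iff.2 (by simpa using h6.inv_right.eq))
  let φ : (P : Subgroup G) →* (P : Subgroup G) :=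
    ((MulAut.conj g).toMonoidHom.comp (P : Subgroup G).subtype).codRestrict _ hN
  have hφ : MonoidHom.FixedPointFree φ := fun y hy => by
    by_contra h
    have h5 : g * y * g⁻¹ = y := congrArg Subtype.val hy
    exact hgp (pow_of_comm h4 (order_syl h4 P y.2 fun e => h (Subtype.ext e))
      (mul_inv_eq_iff_eq_mul.1 h5).symm)
  have hinv : Function.Involutive φ := fun y => Subtype.ext <|
    calc g * (g * y * g⁻¹) * g⁻¹ = g ^ 2 * y * (g ^ 2)⁻¹ := by rw [sq]; group
      _ = y := by rw [hgg]; simp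
  exact fun a ha b hb => congrArg Subtype.val (hφ.commute_all_of_involutive hinv ⟨a, ha⟩ ⟨b, hb⟩).eq

theorem zt_syl {q : ℕ} (hq : 2 ≤ q) (hc : ∀ P : Sylow p G, Nat.card (P : Subgroup G) = q)
    (hab : ∀ P : Sylow p G, ∀ x ∈ P, ∀ y ∈ P, x * y = y * x) (h3 : so G p + 1 = q ^ 2) :
    Nat.card (Sylow p G) = q + 1 ∧ ZT G (Sylow p G) := by
  have hce : ∀ P : Sylow p G, ∀ x ∈ P, x ≠ 1 → centralizer {x} = P := fun P x hx h1 =>
    cent_eq h4 P hx h1 (hab P x hx)
  have hti : ∀ P Q : Sylow p G, ∀ x ∈ P, x ∈ Q → x ≠ 1 → P = Q := fun P Q x hP hQ h =>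
    Sylow.ext ((hce P x hP h).symm.trans (hce Q x hQ h))
  have hΩ : Nat.card (Sylow p G) = q + 1 := by
    have := so_of_family hp.out.ne_one (fun P : Sylow p G => (P : Subgroup G)) hc
      (fun P u hu h => order_syl h4 P hu h) (fun u hu => by
        obtain ⟨P, hP⟩ := (IsPGroup.of_card (G := zpowers u) (p := p) (n := 1)
          (by rw [Nat.card_zpowers, hu, pow_one])).exists_le_sylow
        exact ⟨P, hP (mem_zpowers u)⟩) hti
    obtain ⟨r, rfl⟩ : ∃ r, q = r + 1 := ⟨q - 1, by omega⟩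
    rw [Nat.add_sub_cancel] at this
    refine Nat.eq_of_mul_eq_mul_right (m := r) (by omega) ?_
    nlinarith
  have hfree : ∀ P Q : Sylow p G, Q ≠ P → ∀ u ∈ P, u • Q = Q → u = 1 := fun P Q h u hu e => by
    by_contra h1
    have : u ∈ (P : Subgroup G) ⊓ Q := P.isPGroup'.inf_normalizer_sylow Q ▸
      ⟨hu, Sylow.smul_eq_iff_mem_normalizer.1 e⟩
    exact h (hti Q P u this.2 hu h1)
  have hfix : ∀ P : Sylow p G, ∀ u ∈ P, u • P = P := fun P u hu =>
    Sylow.smul_eq_iff_mem_normalizer.2 (le_normalizer hu)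
  have huniq : ∀ P Q : Sylow p G, Q ≠ P → ∀ u ∈ P, ∀ v ∈ P, u • Q = v • Q → u = v :=
    fun P Q h u hu v hv e => (inv_mul_eq_one.1 (hfree P Q h _ (mul_mem (inv_mem hv) hu)
      (by rw [mul_smul, e, inv_smul_smul]))).symm
  have htr : ∀ P Q R : Sylow p G, Q ≠ P → R ≠ P → ∃ u ∈ P, u • Q = R := fun P Q R h1 h2 => by
    classical
    haveI := Fintype.ofFinite (Sylow p G)
    let f : ↥(P : Subgroup G) → {R : Sylow p G // ¬ R = P} := fun u =>
      ⟨(u : G) • Q, smul_ne_of_fix (hfix P u u.2) h1⟩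
    have hf := (Nat.bijective_iff_injective_and_card f).2
      ⟨fun u v e => Subtype.ext (huniq P Q h1 u u.2 v v.2 (congrArg Subtype.val e)), by
        rw [hc, Nat.card_eq_fintype_card, Fintype.card_subtype_compl, Fintype.card_subtype_eq,
          ← Nat.card_eq_fintype_card, hΩ, Nat.add_sub_cancel]⟩
    obtain ⟨u, hu⟩ := hf.2 ⟨R, h2⟩
    exact ⟨u, u.2, congrArg Subtype.val hu⟩
  have h3 : ∀ (g : G) {a b c : Sylow p G}, a ≠ b → b ≠ c → a ≠ c → g • a = a → g • b = b →
      g • c = c → g = 1 := fun g a b c hab hbc hac ha hb hc' => by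
    obtain ⟨u, hu, e⟩ := htr a b c hab.symm hac.symm
    have h5 : g * u * g⁻¹ = u := huniq a b hab.symm _
      ((mem_normalizer_iff.1 (Sylow.smul_eq_iff_mem_normalizer.1 ha) u).1 hu) u hu (by
        rw [mul_smul, inv_smul_eq_iff.2 hb.symm, mul_smul, e, hc'])
    have h6 : g ∈ (a : Subgroup G) := hce a u hu (by rintro rfl; exact hbc (by simpa using e)) ▸
      mem_centralizer_singleton_iff.2 (mul_inv_eq_iff_eq_mul.1 h5)
    exact hfree a b hab.symm g h6 hb
  refine ⟨hΩ, fun g hg => ?_, fun {a b c d} h1 h2 => ?_, h3⟩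
  · obtain ⟨a, b, c, k1, k2, k3⟩ := exists_three (Ω := Sylow p G) (by omega)
    exact h3 g k1 k3.symm k2.symm (hg _) (hg _) (hg _)
  · obtain ⟨g, hg⟩ := exists_smul_eq G a c
    obtain ⟨u, hu, e⟩ := htr c (g • b) d
      (fun h => h1 (MulAction.injective g (hg.trans h.symm))) h2.symm
    exact ⟨u * g, by rw [mul_smul, hg, hfix c u hu], by rw [mul_smul, e]⟩

theorem recog {f q m : ℕ} (hp2 : p ≠ 2) (hq : q = p ^ f) (hq2 : 2 ≤ q) (hm : q ^ 2 = m + 1)
    (hG : Nat.card G = q * m) (h2 : so G 2 = q ^ 2) (h3 : so G p = m) :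
    ∃ (K : Type) (_ : Field K) (_ : Fintype K), Nat.card K = q ∧ Nonempty (G ≃* PGL(2, K)) := by
  have hcop : q.Coprime m := by
    have : (q ^ 2).Coprime m := by rw [hm]; simp
    exact this.coprime_dvd_left (dvd_pow_self q two_ne_zero)
  have hf : f ≠ 0 := by rintro rfl; simp at hq; omega
  have hc : ∀ P : Sylow p G, Nat.card (P : Subgroup G) = q := fun P => by
    refine Nat.dvd_antisymm ?_ (hq ▸ P.pow_dvd_card_of_pow_dvd_card (hG ▸ hq ▸ dvd_mul_right _ _))
    obtain ⟨k, hk⟩ := IsPGroup.iff_card.1 P.isPGroup'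
    refine Nat.Coprime.dvd_of_dvd_mul_right ?_ (hG ▸ card_subgroup_dvd_card _)
    rw [hk]
    exact (hcop.coprime_dvd_left (hq ▸ dvd_pow_self p hf)).pow_left _
  obtain ⟨hΩ, hT⟩ := zt_syl h4 hq2 hc (fun P => syl_comm h4 hp2 P (fun h => by
    have := hc P
    rw [h, card_bot] at this
    omega) (by
      have := (P : Subgroup G).card_mul_index
      rw [hc, hG] at this
      rw [h3]
      exact Nat.eq_of_mul_eq_mul_left (by omega) this)) (by omega)
  obtain ⟨a, b, c, k1, k2, k3⟩ := exists_three (Ω := Sylow p G) (by omega)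
  have hk : Nat.card (zker G a) = q := by
    have := hT.card_ker k1.symm
    omega
  have ho : Odd q := hq ▸ (hp.out.odd_of_ne_two hp2).pow
  obtain ⟨r, rfl⟩ : ∃ r, q = r + 1 := ⟨q - 1, by omega⟩
  have hH : Nat.card (stabilizer G a ⊓ stabilizer G b : Subgroup G) = r := by
    have := card_zt hT k1
    rw [hG, hΩ, hk] at this
    refine Nat.eq_of_mul_eq_mul_left (show 0 < (r + 1 + 1) * (r + 1) by positivity) ?_
    have e : m = (r + 1 + 1) * r := by nlinarith
    rw [mul_assoc, ← this, e]; ring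
  have hinv := fun g => inv_of_so_two hT k1 k2 k3 (by rw [hk]; exact ho)
    (by rw [hH]; obtain ⟨k, hk⟩ := ho; exact ⟨k, by omega⟩) (by rw [hk, hH, h2]; ring) (g := g)
  obtain ⟨s, hsa, hsb⟩ := hT.two k1 k1.symm
  obtain ⟨K, _, _, h5, e⟩ := pgl_of_inverted hT k1 k2 k3 (by omega) hsa hsb fun h hh => by
    have h5 := hinv s (by rw [hsa, hsb]) (by rw [hsa]; exact k1.symm)
    have h6 := hinv (s * h) (by rw [mul_smul, mul_smul, hh.1, hsa, hh.2, hsb])
      (by rw [mul_smul, hh.1, hsa]; exact k1.symm)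
    rw [inv_eq_of_mul_eq_one_right h5, eq_inv_iff_mul_eq_one, ← h6, mul_assoc]
  exact ⟨K, inferInstance, inferInstance, by omega, e⟩

end

theorem pgl_congr {K F : Type*} [Field K] [Field F] (e : K ≃+* F) :
    Nonempty (PGL(2, K) ≃* GL (Fin 2) F ⧸ center (GL (Fin 2) F)) := by
  let f : GL (Fin 2) K ≃* GL (Fin 2) F := Units.mapEquiv e.mapMatrix.toMulEquiv
  refine ⟨QuotientGroup.congr (center _) (center _) f ?_⟩
  ext g
  obtain ⟨g, rfl⟩ := f.surjective g
  refine (mem_map_iff_mem f.injective).trans ?_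
  simp only [mem_center_iff, f.surjective.forall, ← map_mul, f.injective.eq_iff]

end Cfsg.Agent.H73.Pg
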